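import Mathlib
import Cfsg.Agent.JankoThree.Lines

/-! The isotropic representatives are least in their orbits. -/

set_option autoImplicit false
-- sequential kernel evaluation keeps the peak memory of the certificates low
set_option Elab.async false

namespace CfsgLib.JankoThree

private theorem all_of_chunks {α : Type*} {f : α → Bool} (w : ℕ) :
    ∀ (n : ℕ) (l : List α), (∀ c < n, ((l.drop (c * w)).take w).all f = true) →
      (l.drop (n * w)).all f = true → l.all f = true
  | 0, l, _, h => by simpa using h
  | n + 1, l, hc, h => by
    refine all_of_chunks w n l (fun c hcn => hc c (by omega)) ?_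
    rw [← List.take_append_drop w (l.drop (n * w)), List.all_append, hc n (by omega),
      List.drop_drop, ← Nat.succ_mul, h]
    rfl

theorem isoReps_good_0 : ((isoReps.drop (0 * 20)).take 20).all goodRep = true := by
  decide +kernel

theorem isoReps_good_1 : ((isoReps.drop (1 * 20)).take 20).all goodRep = true := by
  decide +kernel

theorem isoReps_good_2 : ((isoReps.drop (2 * 20)).take 20).all goodRep = true := by
  decide +kernel

theorem isoReps_good_3 : ((isoReps.drop (3 * 20)).take 20).all goodRep = true := by
  decide +kernel

theorem isoReps_good_4 : ((isoReps.drop (4 * 20)).take 20).all goodRep = true := by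
  decide +kernel

theorem isoReps_good_5 : ((isoReps.drop (5 * 20)).take 20).all goodRep = true := by
  decide +kernel

theorem isoReps_good_6 : ((isoReps.drop (6 * 20)).take 20).all goodRep = true := by
  decide +kernel

theorem isoReps_good_7 : ((isoReps.drop (7 * 20)).take 20).all goodRep = true := by
  decide +kernel

theorem isoReps_good_8 : ((isoReps.drop (8 * 20)).take 20).all goodRep = true := by
  decide +kernel

theorem isoReps_good_9 : ((isoReps.drop (9 * 20)).take 20).all goodRep = true := by
  decide +kernel

theorem isoReps_good_10 : ((isoReps.drop (10 * 20)).take 20).all goodRep = true := by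
  decide +kernel

theorem isoReps_good_11 : ((isoReps.drop (11 * 20)).take 20).all goodRep = true := by
  decide +kernel

theorem isoReps_good_12 : ((isoReps.drop (12 * 20)).take 20).all goodRep = true := by
  decide +kernel

theorem isoReps_good_13 : ((isoReps.drop (13 * 20)).take 20).all goodRep = true := by
  decide +kernel

theorem isoReps_good_14 : ((isoReps.drop (14 * 20)).take 20).all goodRep = true := by
  decide +kernel

theorem isoReps_good_15 : ((isoReps.drop (15 * 20)).take 20).all goodRep = true := by
  decide +kernel

theorem isoReps_good_16 : ((isoReps.drop (16 * 20)).take 20).all goodRep = true := by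
  decide +kernel

theorem isoReps_good_17 : ((isoReps.drop (17 * 20)).take 20).all goodRep = true := by
  decide +kernel

theorem isoReps_good_18 : ((isoReps.drop (18 * 20)).take 20).all goodRep = true := by
  decide +kernel

theorem isoReps_good_19 : ((isoReps.drop (19 * 20)).take 20).all goodRep = true := by
  decide +kernel

theorem isoReps_good_20 : ((isoReps.drop (20 * 20)).take 20).all goodRep = true := by
  decide +kernel

theorem isoReps_good_21 : ((isoReps.drop (21 * 20)).take 20).all goodRep = true := by
  decide +kernel

theorem isoReps_good_22 : ((isoReps.drop (22 * 20)).take 20).all goodRep = true := by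
  decide +kernel

theorem isoReps_good_23 : ((isoReps.drop (23 * 20)).take 20).all goodRep = true := by
  decide +kernel

theorem isoReps_good_24 : ((isoReps.drop (24 * 20)).take 20).all goodRep = true := by
  decide +kernel

theorem isoReps_good_25 : ((isoReps.drop (25 * 20)).take 20).all goodRep = true := by
  decide +kernel

theorem isoReps_good_26 : ((isoReps.drop (26 * 20)).take 20).all goodRep = true := by
  decide +kernel

theorem isoReps_good_27 : ((isoReps.drop (27 * 20)).take 20).all goodRep = true := by
  decide +kernel

theorem isoReps_good_28 : ((isoReps.drop (28 * 20)).take 20).all goodRep = true := by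
  decide +kernel

theorem isoReps_good_29 : ((isoReps.drop (29 * 20)).take 20).all goodRep = true := by
  decide +kernel

theorem isoReps_good_30 : ((isoReps.drop (30 * 20)).take 20).all goodRep = true := by
  decide +kernel

theorem isoReps_good_31 : ((isoReps.drop (31 * 20)).take 20).all goodRep = true := by
  decide +kernel

theorem isoReps_good_32 : ((isoReps.drop (32 * 20)).take 20).all goodRep = true := by
  decide +kernel

theorem isoReps_good_33 : ((isoReps.drop (33 * 20)).take 20).all goodRep = true := by
  decide +kernel

theorem isoReps_good_34 : ((isoReps.drop (34 * 20)).take 20).all goodRep = true := by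
  decide +kernel

theorem isoReps_good_35 : ((isoReps.drop (35 * 20)).take 20).all goodRep = true := by
  decide +kernel

theorem isoReps_good_36 : ((isoReps.drop (36 * 20)).take 20).all goodRep = true := by
  decide +kernel

theorem isoReps_good : isoReps.all goodRep = true := by
  refine all_of_chunks 20 37 _ (fun c hc => ?_) (by decide +kernel)
  match c, hc with
  | 0, _ => exact isoReps_good_0
  | 1, _ => exact isoReps_good_1
  | 2, _ => exact isoReps_good_2
  | 3, _ => exact isoReps_good_3
  | 4, _ => exact isoReps_good_4
  | 5, _ => exact isoReps_good_5
  | 6, _ => exact isoReps_good_6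
  | 7, _ => exact isoReps_good_7
  | 8, _ => exact isoReps_good_8
  | 9, _ => exact isoReps_good_9
  | 10, _ => exact isoReps_good_10
  | 11, _ => exact isoReps_good_11
  | 12, _ => exact isoReps_good_12
  | 13, _ => exact isoReps_good_13
  | 14, _ => exact isoReps_good_14
  | 15, _ => exact isoReps_good_15
  | 16, _ => exact isoReps_good_16
  | 17, _ => exact isoReps_good_17
  | 18, _ => exact isoReps_good_18
  | 19, _ => exact isoReps_good_19
  | 20, _ => exact isoReps_good_20
  | 21, _ => exact isoReps_good_21
  | 22, _ => exact isoReps_good_22
  | 23, _ => exact isoReps_good_23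
  | 24, _ => exact isoReps_good_24
  | 25, _ => exact isoReps_good_25
  | 26, _ => exact isoReps_good_26
  | 27, _ => exact isoReps_good_27
  | 28, _ => exact isoReps_good_28
  | 29, _ => exact isoReps_good_29
  | 30, _ => exact isoReps_good_30
  | 31, _ => exact isoReps_good_31
  | 32, _ => exact isoReps_good_32
  | 33, _ => exact isoReps_good_33
  | 34, _ => exact isoReps_good_34
  | 35, _ => exact isoReps_good_35
  | 36, _ => exact isoReps_good_36
  | c + 37, h => omega

end CfsgLib.JankoThree
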