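import Mathlib
import Cfsg.Agent.JankoThree.Omega

/-! `3·J₃` preserves the standard Hermitian form. -/

set_option autoImplicit false

namespace CfsgLib.JankoThree

open Cfsg
open scoped Matrix

theorem conj_check : (List.range 7).all (fun g => (List.range 9).all fun i => (List.range 9).all fun j =>
    (((genInv.getD g onePk).getD j 0).testBit i ==
      (((genPk.getD g onePk).getD i 0).testBit j ^^ ((genPk.getD g onePk).getD i 0).testBit (j + 9))) &&
    (((genInv.getD g onePk).getD j 0).testBit (i + 9) ==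
      ((genPk.getD g onePk).getD i 0).testBit (j + 9))) = true ∧
    (List.range 7).all (fun g =>
      eqM (mul (genInv.getD g onePk) (genPk.getD g onePk)) onePk) = true := by decide +kernel

variable {F : Type*} [Field F] [Fintype F] {ω : F}

/-- preserves the form `Σ u v²` -/
def PresForm (g : GL Spor.F9 F) : Prop :=
  ∀ u v : Spor.F9 → F,
    ∑ z, ((g : Matrix Spor.F9 Spor.F9 F) *ᵥ u) z * (((g : Matrix Spor.F9 Spor.F9 F) *ᵥ v) z) ^ 2 =
      ∑ z, u z * v z ^ 2

variable (hF : Fintype.card F = 4) (hω : ω ^ 2 + ω + 1 = 0)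
include hF hω

theorem presForm_gE {g : ℕ} (hg : g < 7) : PresForm (gE ω g) := by
  have h2 := two_eq_zero hF
  haveI : CharP F 2 := CharTwo.of_one_ne_zero_of_two_eq_zero one_ne_zero h2
  set c : F →+* F := frobenius F 2 with hc
  have hconj : ∀ a b, c (phi2 ω a b) = phi2 ω (a ^^ b) b := fun a b => by
    rw [hc, frobenius_def]
    cases a <;> cases b <;> simp [phi2]
    · exact omega_sq h2 hω
    · linear_combination hω + (1 - 1) * h2
  set M := toMat ω (genPk.getD g onePk) with hM
  have hl := inv_length g hg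
  have hinv : toMat ω (genInv.getD g onePk) = (M.map c)ᵀ := by
    ext z w
    rw [Matrix.transpose_apply, Matrix.map_apply, hM, toMat_apply, toMat_apply, el, el, hconj]
    have h := List.all_eq_true.1 (List.all_eq_true.1 (List.all_eq_true.1 conj_check.1 g
      (List.mem_range.2 hg)) (ix z) (List.mem_range.2 (ix_lt z))) (ix w)
      (List.mem_range.2 (ix_lt w))
    simp only [Bool.and_eq_true, beq_iff_eq] at h
    rw [h.1, h.2]
  have hone : (M.map c)ᵀ * M = 1 := by
    rw [← hinv, hM, ← toMat_mul h2 hω hl (genPk_length g),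
      eqM_eq (List.all_eq_true.1 conj_check.2 g (List.mem_range.2 hg)), toMat_onePk]
  have hone' : Mᵀ * M.map c = 1 := by
    have := congrArg Matrix.transpose hone
    rwa [Matrix.transpose_mul, Matrix.transpose_transpose, Matrix.transpose_one] at this
  intro u v
  rw [(rep_gE hF hω g).2, ← hM]
  have e : ∀ z, ((M *ᵥ v) z) ^ 2 = (M.map c *ᵥ fun x => v x ^ 2) z := fun z => by
    rw [show ((M *ᵥ v) z) ^ 2 = c ((M *ᵥ v) z) from (frobenius_def 2 _).symm, RingHom.map_mulVec]
    rfl
  simp only [e]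
  show (M *ᵥ u) ⬝ᵥ (M.map c *ᵥ fun x => v x ^ 2) = u ⬝ᵥ fun x => v x ^ 2
  rw [Matrix.dotProduct_mulVec, Matrix.vecMul_mulVec, hone', Matrix.vecMul_one]

theorem presForm {g : GL Spor.F9 F} (hg : g ∈ Spor.threeJ3 F ω) : PresForm g := by
  rw [threeJ3_eq_closure hF hω] at hg
  induction hg using Subgroup.closure_induction with
  | mem x hx =>
    obtain ⟨i, rfl⟩ := hx
    exact presForm_gE hF hω i.2
  | one => intro u v; simp
  | mul a b _ _ ha hb =>
    intro u v
    rw [Units.val_mul, ← Matrix.mulVec_mulVec, ← Matrix.mulVec_mulVec, ha, hb]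
  | inv a _ ha =>
    intro u v
    have h := ha ((↑a⁻¹ : Matrix Spor.F9 Spor.F9 F) *ᵥ u) ((↑a⁻¹ : Matrix Spor.F9 Spor.F9 F) *ᵥ v)
    rw [Matrix.mulVec_mulVec, Matrix.mulVec_mulVec, ← Units.val_mul, mul_inv_cancel,
      Units.val_one, Matrix.one_mulVec, Matrix.one_mulVec] at h
    exact h.symm

end CfsgLib.JankoThree
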