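import Mathlib
import Cfsg.Agent.JankoThree.Unitary
import Cfsg.Agent.JankoThree.IsotropicCert

/-! The isotropic lines form one orbit of `3·J₃`. -/

set_option autoImplicit false

namespace CfsgLib.JankoThree

open Cfsg
open scoped Matrix

attribute [local instance] lineAction

theorem isoWords_check : (List.range isoReps.length).all (fun n =>
    Nat.beq (canon (mv (evW (isoWords.getD n [])) isoBase)) (isoReps.getD n (0, 0)).1) = true := by
  decide +kernel

theorem isoReps_check : sortedFst isoReps = true ∧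
    (isoReps.map fun p => 648 / p.2).sum = 43605 ∧
    (Finset.univ.filter fun z : Spor.F9 =>
      (isoBase.testBit (ix z) || isoBase.testBit (ix z + 9)) = true).card = 2 := by
  decide +kernel

/-- the number of vectors with an even number of nonzero entries -/
def evenCount : ℕ → ℕ
  | 0 => 1
  | n + 1 => evenCount n + 3 * (4 ^ n - evenCount n)

variable {F : Type*} [Field F] [Fintype F] {ω : F}
variable (hF : Fintype.card F = 4) (hω : ω ^ 2 + ω + 1 = 0)
include hF hω

theorem cube_eq_one {x : F} (hx : x ≠ 0) : x ^ 3 = 1 := by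
  have := FiniteField.pow_card_sub_one_eq_one x hx
  rwa [hF] at this

theorem sum_cube_cases {ι : Type} [Fintype ι] (v : ι → F) :
    ∑ i, v i ^ 3 = 0 ∨ ∑ i, v i ^ 3 = 1 := by
  classical
  have h2 := two_eq_zero hF
  induction (Finset.univ : Finset ι) using Finset.induction with
  | empty => simp
  | insert a s ha ih =>
    rw [Finset.sum_insert ha]
    by_cases h : v a = 0
    · rw [h, zero_pow (by norm_num), zero_add]; exact ih
    · rw [cube_eq_one hF hω h]
      rcases ih with e | e <;> rw [e]
      · exact Or.inr (add_zero 1)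
      · exact Or.inl (by linear_combination h2)

open Classical in
theorem card_sum_cube_zero (n : ℕ) :
    (Finset.univ.filter fun v : Fin n → F => ∑ i, v i ^ 3 = 0).card = evenCount n := by
  induction n with
  | zero => simp [evenCount]
  | succ n ih =>
    have h2 := two_eq_zero hF
    have h1 : (Finset.univ.filter fun v : Fin n → F => ∑ i, v i ^ 3 = 1).card =
        4 ^ n - evenCount n := by
      rw [← ih]
      have := Finset.card_filter_add_card_filter_not
        (s := (Finset.univ : Finset (Fin n → F))) (fun v => ∑ i, v i ^ 3 = 0)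
      rw [Finset.card_univ, Fintype.card_fun, hF, Fintype.card_fin] at this
      have e : (Finset.univ.filter fun v : Fin n → F => ¬ ∑ i, v i ^ 3 = 0) =
          Finset.univ.filter fun v : Fin n → F => ∑ i, v i ^ 3 = 1 :=
        Finset.filter_congr fun v _ =>
          ⟨(sum_cube_cases hF hω v).resolve_left, fun e => by rw [e]; exact one_ne_zero⟩
      rw [← e]
      omega
    have hcong : (Finset.univ.filter fun v : Fin (n + 1) → F => ∑ i, v i ^ 3 = 0).card =
        ∑ x : F, (Finset.univ.filter fun w : Fin n → F => x ^ 3 + ∑ i, w i ^ 3 = 0).card := by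
      simp only [Finset.card_filter]
      rw [← Fintype.sum_prod_type']
      refine (Fintype.sum_equiv (Fin.consEquiv fun _ => F) _ _ fun p => ?_).symm
      simp [Fin.sum_univ_succ]
    rw [hcong, ← Finset.add_sum_erase _ _ (Finset.mem_univ (0 : F)),
      Finset.sum_congr rfl fun x hx => show (Finset.univ.filter
        fun w : Fin n → F => x ^ 3 + ∑ i, w i ^ 3 = 0).card = 4 ^ n - evenCount n by
        rw [← h1]
        refine congrArg Finset.card (Finset.filter_congr fun w _ => ?_)
        rw [cube_eq_one hF hω (Finset.mem_erase.1 hx).1]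
        exact ⟨fun e => by linear_combination e - h2, fun e => by linear_combination e + h2⟩,
      Finset.sum_const, Finset.card_erase_of_mem (Finset.mem_univ _), Finset.card_univ, hF,
      evenCount, smul_eq_mul]
    simp [ih]

/-- the isotropic lines -/
def isoLines : Set (Submodule F (Spor.F9 → F)) :=
  {L | ∃ v : Spor.F9 → F, v ≠ 0 ∧ ∑ z, v z ^ 3 = 0 ∧ L = F ∙ v}

theorem ncard_isoLines : (isoLines (F := F)).ncard ≤ 43605 := by
  classical
  set V := Finset.univ.filter fun v : Spor.F9 → F => v ≠ 0 ∧ ∑ z, v z ^ 3 = 0 with hV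
  have hVc : V.card + 1 = 130816 := by
    let e : Spor.F9 ≃ Fin 9 :=
      { toFun := fun z => ⟨ix z, ix_lt z⟩
        invFun := fun i => zOf i
        left_inv := zOf_ix
        right_inv := fun i => Fin.ext (ix_zOf i i.2) }
    have hW : (Finset.univ.filter fun v : Spor.F9 → F => ∑ z, v z ^ 3 = 0).card = 130816 := by
      rw [show (130816 : ℕ) = evenCount 9 from rfl, ← card_sum_cube_zero hF hω 9]
      refine Finset.card_equiv (e.arrowCongr (Equiv.refl F)) fun v => ?_
      simp only [Finset.mem_filter, Finset.mem_univ, true_and]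
      rw [show ∑ i : Fin 9, (e.arrowCongr (Equiv.refl F) v) i ^ 3 = ∑ z, v z ^ 3 from
        Fintype.sum_equiv e.symm _ _ fun i => rfl]
    have hins : insert (0 : Spor.F9 → F) V =
        Finset.univ.filter fun v : Spor.F9 → F => ∑ z, v z ^ 3 = 0 := by
      ext v
      by_cases h : v = 0 <;> simp [hV, h]
    rw [← hW, ← hins, Finset.card_insert_of_notMem (by simp [hV])]
  have hfin : (isoLines (F := F)).Finite := Set.toFinite _
  choose v hv0 hv3 hvL using fun L : isoLines (F := F) => L.2
  have hinj : Function.Injective fun p : isoLines (F := F) × Fˣ => ((p.2 : F) • v p.1) := by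
    rintro ⟨L, c⟩ ⟨L', c'⟩ h
    dsimp only at h
    have hL : L = L' := Subtype.ext (by
      rw [hvL L, hvL L', ← Submodule.span_singleton_smul_eq c.isUnit (v L), h,
        Submodule.span_singleton_smul_eq c'.isUnit (v L')])
    subst hL
    obtain ⟨z, hz⟩ := Function.ne_iff.1 (hv0 L)
    exact Prod.ext rfl (Units.ext (mul_right_cancel₀ hz (congrFun h z)))
  have hmem : ∀ p : isoLines (F := F) × Fˣ, ((p.2 : F) • v p.1) ∈ V := fun p => by
    simp only [hV, Finset.mem_filter, Finset.mem_univ, true_and]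
    refine ⟨smul_ne_zero p.2.ne_zero (hv0 p.1), ?_⟩
    simp only [Pi.smul_apply, smul_eq_mul, mul_pow, cube_eq_one hF hω p.2.ne_zero, one_mul]
    exact hv3 p.1
  have := Nat.card_le_card_of_injective
    (fun p => (⟨_, hmem p⟩ : {x // x ∈ V})) fun a b h => hinj (congrArg Subtype.val h)
  rw [Nat.card_prod, Nat.card_units, Nat.card_eq_fintype_card (α := F), hF, Nat.card_coe_set_eq,
    Nat.card_eq_finsetCard] at this
  omega

theorem isoBase_iso : ∑ z, toVec ω isoBase z ^ 3 = 0 ∧ toVec ω isoBase ≠ 0 := by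
  classical
  have h2 := two_eq_zero hF
  have hz : ∀ z, toVec ω isoBase z = 0 ↔
      ¬ (isoBase.testBit (ix z) || isoBase.testBit (ix z + 9)) = true := fun z => by
    show phi2 ω _ _ = 0 ↔ _
    have h0 := omega_ne_zero hω
    have h3 : (1 : F) + ω ≠ 0 := fun e => omega_ne_one h2 hω (by linear_combination e - h2)
    cases isoBase.testBit (ix z) <;> cases isoBase.testBit (ix z + 9) <;> simp [phi2, h0, h3]
  refine ⟨?_, fun h => ?_⟩
  · rw [Finset.sum_congr rfl fun z _ => show toVec ω isoBase z ^ 3 =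
      if (isoBase.testBit (ix z) || isoBase.testBit (ix z + 9)) = true then 1 else 0 by
        split_ifs with e
        · exact cube_eq_one hF hω fun q => (hz z).1 q e
        · rw [(hz z).2 e, zero_pow (by norm_num)],
      Finset.sum_boole, isoReps_check.2.2]
    exact_mod_cast h2
  · have := isoReps_check.2.2
    rw [Finset.filter_false_of_mem fun z _ => (hz z).1 (congrFun h z)] at this
    simp at this

theorem isoLines_orbit {v : Spor.F9 → F} (hv : v ≠ 0) (h3 : ∑ z, v z ^ 3 = 0) :
    (F ∙ v) ∈ MulAction.orbit (Spor.threeJ3 F ω) (ln ω isoBase) := by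
  classical
  have hsub : repUnion ω isoReps ⊆
      MulAction.orbit (Spor.threeJ3 F ω) (ln ω isoBase) := by
    rintro _ ⟨p, hp, ⟨⟨k, hk⟩, rfl⟩⟩
    obtain ⟨n, hn, rfl⟩ := List.getElem_of_mem hp
    have h := Nat.eq_of_beq_eq_true (List.all_eq_true.1 isoWords_check n (List.mem_range.2 hn))
    rw [List.getD_eq_getElem isoReps _ hn] at h
    refine ⟨⟨k * gW ω (isoWords.getD n []),
      mul_mem (stabGrp_le hF hω (monoGrp_le hF hω hk)) (gW_mem hF hω _)⟩, ?_⟩
    show (k * gW ω _) • ln ω isoBase = k • ln ω isoReps[n].1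
    rw [mul_smul, (rep_gW hF hω _).smul_ln (two_eq_zero hF) hω, ← ln_canon hF hω, h]
  have hiso : MulAction.orbit (Spor.threeJ3 F ω) (ln ω isoBase) ⊆ isoLines := by
    rintro _ ⟨⟨g, hg⟩, rfl⟩
    obtain ⟨b3, b0⟩ := isoBase_iso hF hω
    refine ⟨(g : Matrix Spor.F9 Spor.F9 F) *ᵥ toVec ω isoBase, fun e => b0 ?_, ?_, smul_span _ _⟩
    · have := congrArg (fun x => ((g⁻¹ : GL Spor.F9 F) : Matrix Spor.F9 Spor.F9 F) *ᵥ x) e
      simpa [Matrix.mulVec_mulVec, ← Units.val_mul] using this
    · have hp := presForm hF hω hg (toVec ω isoBase) (toVec ω isoBase)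
      simp only [← pow_succ'] at hp
      rw [hp]; exact b3
  have heq : repUnion ω isoReps = isoLines := by
    refine Set.eq_of_subset_of_ncard_le (hsub.trans hiso) ?_ (Set.toFinite _)
    rw [ncard_repUnion hF hω _ isoReps_good isoReps_check.1, isoReps_check.2.1]
    exact ncard_isoLines hF hω
  exact hsub (heq ▸ ⟨v, hv, h3, rfl⟩)

theorem orbits_on_lines :
    {L : Submodule F (Spor.F9 → F) | ∃ g ∈ Spor.threeJ3 F ω, L =
        F ∙ ((g : Matrix Spor.F9 Spor.F9 F) *ᵥ (Pi.single (0 : Spor.F9) (1 : F) : Spor.F9 → F))}.ncard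
      = 23256 ∧
    ∀ v w : Spor.F9 → F, v ≠ 0 → w ≠ 0 → ∑ z, (v z) ^ 3 = 0 → ∑ z, (w z) ^ 3 = 0 →
      ∃ g ∈ Spor.threeJ3 F ω, ∃ c : F, c ≠ 0 ∧ (g : Matrix Spor.F9 Spor.F9 F) *ᵥ v = c • w := by
  have hbase : toVec ω 1 = (Pi.single (0 : Spor.F9) (1 : F) : Spor.F9 → F) := by
    have key : ∀ z : Spor.F9, Nat.testBit 1 (ix z) = decide (z = 0) ∧
        Nat.testBit 1 (ix z + 9) = false := by decide +kernel
    funext z
    rw [toVec, el, (key z).1, (key z).2, Pi.single_apply]
    by_cases h : z = 0 <;> simp [h, phi2]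
  refine ⟨?_, fun v w hv hw v3 w3 => ?_⟩
  · rw [← ncard_orbit_baseLine hF hω]
    congr 1
    ext L
    constructor
    · rintro ⟨g, hg, rfl⟩
      refine ⟨⟨g, hg⟩, ?_⟩
      show g • baseLine ω = _
      rw [baseLine, ln, hbase, smul_span]
    · rintro ⟨⟨g, hg⟩, rfl⟩
      refine ⟨g, hg, ?_⟩
      show g • baseLine ω = _
      rw [baseLine, ln, hbase, smul_span]
  · have h1 := isoLines_orbit hF hω hv v3
    have h2 := isoLines_orbit hF hω hw w3
    rw [← MulAction.orbit_eq_iff.2 h1] at h2
    obtain ⟨⟨g, hg⟩, e⟩ := h2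
    have e' : F ∙ ((g : Matrix Spor.F9 Spor.F9 F) *ᵥ v) = F ∙ w := by rw [← smul_span]; exact e
    obtain ⟨u, hu⟩ := Submodule.span_singleton_eq_span_singleton.1 e'.symm
    exact ⟨g, hg, u, u.ne_zero, hu.symm⟩

end CfsgLib.JankoThree
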