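import Cfsg.Agent.JankoThree.FusionCheck
import Cfsg.Agent.JankoThree.Simple
import Cfsg.Agent.JankoThree.Isotropic
import Cfsg.Agent.JankoThree.Unitary
import Cfsg.Agent.Fus.CentralInvolution

/-!
The `2`-local structure of `J₃`: the centralizer of an involution has order 1920 and normalizes an
extraspecial group of order 32, all involutions are conjugate, and the `2`-fusion system is simple.
-/

set_option autoImplicit false
set_option maxRecDepth 100000

namespace CfsgLib.JankoThree.Fusion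

open Cfsg CfsgLib.JankoThree
open scoped Matrix

attribute [local instance] lineAction

theorem parOK_spec {pk : ℕ → List ℕ} {gs : List ℕ} {n : ℕ} (P : ℕ → Prop)
    (hstep : ∀ x k y, x < n → k < gs.length → P x → eqM (mul (pk (gs.getD k 0)) (pk x)) (pk y) = true → P y) :
    ∀ (par : List (ℕ × ℕ × ℕ)) (seen : List ℕ), parOK pk gs n seen par = true →
      (∀ x ∈ seen, P x) → ∀ j < n, P j := by
  intro par
  induction par with
  | nil =>
    intro seen h hs j hj
    simp only [parOK, List.all_eq_true, List.mem_range, List.contains_eq_mem, decide_eq_true_eq] at h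
    exact hs j (h j hj)
  | cons e l ih =>
    obtain ⟨y, x, k⟩ := e
    intro seen h hs
    simp only [parOK, Bool.and_eq_true, List.contains_eq_mem, decide_eq_true_eq] at h
    refine ih _ h.2 fun z hz => ?_
    rcases List.mem_cons.1 hz with rfl | hz
    · exact hstep x k _ (Nat.le_of_ble_eq_true h.1.1.1.2) (Nat.le_of_ble_eq_true h.1.1.2)
        (hs x h.1.1.1.1) h.1.2
    · exact hs z hz

/-- the subgroup spanned by listed generators -/
def spanW {F : Type*} [Field F] [Fintype F] (ω : F) (wd : ℕ → List ℕ) (gs : List ℕ) :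
    Subgroup (GL Spor.F9 F) :=
  Subgroup.closure {g | ∃ i ∈ gs, g = gW ω (wd i)}

variable {F : Type*} [Field F] [Fintype F] {ω : F}
variable (hF : Fintype.card F = 4) (hω : ω ^ 2 + ω + 1 = 0)
include hF hω

theorem grpOK_spec {wd pk : ℕ → List ℕ} {one : ℕ} {gs : List ℕ} {n : ℕ} {left : List (List ℕ)}
    {par : List (ℕ × ℕ × ℕ)} (h : grpOK wd pk one gs n left par = true) :
    (∀ j < n, Rep ω (gW ω (wd j)) (pk j)) ∧
    (∀ j k, j < n → k < n → gW ω (wd j) = gW ω (wd k) → j = k) ∧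
    (one < n ∧ gW ω (wd one) = 1) ∧
    ∀ x, x ∈ spanW ω wd gs ↔ ∃ j < n, x = gW ω (wd j) := by
  simp only [grpOK, Bool.and_eq_true, List.all_eq_true, List.mem_range, Bool.not_eq_true'] at h
  obtain ⟨⟨⟨⟨hpk, hone, hn⟩, hgs⟩, hleft⟩, hpar⟩ := h
  have hn' : one < n := Nat.le_of_ble_eq_true hn
  have hrep : ∀ j < n, Rep ω (gW ω (wd j)) (pk j) := fun j hj =>
    eqM_eq (hpk j hj).1 ▸ rep_gW hF hω (wd j)
  have hone' : gW ω (wd one) = 1 := (hrep one hn').eq (eqM_eq hone ▸ Rep.one)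
  have hneq : ∀ j k, j < n → k < j → gW ω (wd j) ≠ gW ω (wd k) := by
    intro j k hj hkj he
    have hk := hrep k (hkj.trans hj)
    have := mKey_eq hF hω (hrep j hj).1 hk.1 (by rw [← (hrep j hj).2, ← hk.2, he])
    have hne := (hpk j hj).2 k hkj
    rw [this, Nat.beq_refl] at hne
    exact absurd hne (by decide)
  refine ⟨hrep, fun j k hj hk he => ?_, ⟨hn', hone'⟩, fun x => ⟨fun hx => ?_, ?_⟩⟩
  · rcases Nat.lt_trichotomy j k with hlt | heq | hgt
    · exact absurd he.symm (hneq k j hk hlt)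
    · exact heq
    · exact absurd he (hneq j k hj hgt)
  · refine closure_subset (S := {x | ∃ j < n, x = gW ω (wd j)}) ⟨one, hn', hone'.symm⟩ ?_ hx
    rintro _ ⟨i, hi, rfl⟩ _ ⟨j, hj, rfl⟩
    obtain ⟨k, hk, rfl⟩ := List.getElem_of_mem hi
    obtain ⟨ht, he⟩ := hleft k hk j hj
    rw [List.getD_eq_getElem _ _ hk] at he
    exact ⟨_, Nat.le_of_ble_eq_true ht, ((hrep _ (Nat.le_of_ble_eq_true (hgs _ hi))).mul
      (two_eq_zero hF) hω (hrep j hj)).eq (eqM_eq he ▸ hrep _ (Nat.le_of_ble_eq_true ht))⟩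
  · rintro ⟨j, hj, rfl⟩
    refine (parOK_spec (fun j => j < n → gW ω (wd j) ∈ spanW ω wd gs) ?_ par [one] hpar ?_ j hj) hj
    · intro x k y hxn hk hx he hy
      rw [List.getD_eq_getElem _ _ hk] at he
      have hmem := List.getElem_mem hk
      rw [(hrep y hy).eq (eqM_eq he ▸
        (hrep _ (Nat.le_of_ble_eq_true (hgs _ hmem))).mul (two_eq_zero hF) hω (hrep x hxn))]
      exact mul_mem (Subgroup.subset_closure ⟨_, hmem, rfl⟩) (hx hxn)
    · intro x hx _
      rw [List.mem_singleton.1 hx, hone']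
      exact one_mem _

/-! ### Elements and lifting -/

omit hF hω in
theorem gen_ext {R : Subgroup (GL Spor.F9 F)} {u : GL Spor.F9 F} {S : Set (GL Spor.F9 F)}
    (hR : R = Subgroup.closure S) (h : ∀ x ∈ S, u * x * u⁻¹ ∈ R) : ∀ x ∈ R, u * x * u⁻¹ ∈ R := by
  intro x hx
  have hle : R ≤ R.comap (MulAut.conj u).toMonoidHom := by
    conv_lhs => rw [hR]
    exact (Subgroup.closure_le _).2 fun y hy => h y hy
  exact hle hx

/-- the central involution in the matrix group -/
theorem z_facts : gW ω (sW zIdx) = gW ω zWord ∧ gW ω zWord * gW ω zWord = 1 ∧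
    gW ω zWord ∈ spanW ω sW sgIdx ∧ gW ω zWord ≠ 1 ∧ Rep ω (gW ω zWord) (sPk zIdx) ∧
    mv (sPk zIdx) 1 = 1 ∧ zIdx < 128 := by
  obtain ⟨hrep, hinj, ⟨hone, hone'⟩, hmem⟩ := grpOK_spec hF hω syl_ok
  have h := lists_ok
  simp only [Bool.and_eq_true, Bool.not_eq_true'] at h
  have hz : zIdx < 128 := Nat.le_of_ble_eq_true h.1.1.1.1.2
  have hr : Rep ω (gW ω zWord) (sPk zIdx) := eqM_eq h.1.1.2 ▸ rep_gW hF hω zWord
  have he : gW ω (sW zIdx) = gW ω zWord := (hrep _ hz).eq hr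
  refine ⟨he, (hr.mul (two_eq_zero hF) hω hr).eq (eqM_eq h.1.2 ▸ Rep.one),
    (hmem _).2 ⟨_, hz, he.symm⟩, fun h1 => ?_, hr, Nat.eq_of_beq_eq_true h.2, hz⟩
  have := hinj _ _ hz hone (by rw [he, h1, hone'])
  rw [this, Nat.beq_refl] at h
  exact absurd h.1.1.1.2 (by decide)

theorem syl_le : spanW ω sW sgIdx ≤ Spor.threeJ3 F ω := by
  rw [spanW, Subgroup.closure_le]
  rintro _ ⟨i, -, rfl⟩
  exact gW_mem hF hω _

theorem card_syl : Nat.card (spanW ω sW sgIdx) = 128 := by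
  obtain ⟨hrep, hinj, -, hmem⟩ := grpOK_spec hF hω syl_ok
  refine (Nat.card_congr (Equiv.ofBijective
    (fun j : Fin 128 => (⟨gW ω (sW j), (hmem _).2 ⟨j, j.2, rfl⟩⟩ : spanW ω sW sgIdx)) ⟨?_, ?_⟩)).symm.trans
    (Nat.card_fin 128)
  · intro j k e
    exact Fin.ext (hinj _ _ j.2 k.2 (congrArg Subtype.val e))
  · rintro ⟨x, hx⟩
    obtain ⟨j, hj, rfl⟩ := (hmem x).1 hx
    exact ⟨⟨j, hj⟩, rfl⟩

/-- a central element of a `2`-power order is trivial -/
theorem eq_one_of_center {x : Spor.threeJ3 F ω} (hx : x ∈ Subgroup.center (Spor.threeJ3 F ω))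
    (hs : (x : GL Spor.F9 F) ∈ spanW ω sW sgIdx) : x = 1 := by
  have h3 : orderOf x ∣ 3 := by
    have h := Subgroup.orderOf_dvd_natCard _ hx
    rwa [card_center hF hω] at h
  have h2 : orderOf x ∣ 128 := by
    rw [← Subgroup.orderOf_coe]
    exact card_syl hF hω ▸ Subgroup.orderOf_dvd_natCard _ hs
  exact orderOf_eq_one_iff.1 (Nat.eq_one_of_dvd_coprimes (by norm_num) h3 h2)

/-- the quotient map -/
noncomputable def toJ (w : List ℕ) : Spor.J3 F ω :=
  QuotientGroup.mk' (Subgroup.center (Spor.threeJ3 F ω)) ⟨gW ω w, gW_mem hF hω w⟩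

/-- the map to the quotient -/
def proj (_hF : Fintype.card F = 4) (_hω : ω ^ 2 + ω + 1 = 0) : Spor.threeJ3 F ω →* Spor.J3 F ω := QuotientGroup.mk' _

theorem proj_eq_one {x : Spor.threeJ3 F ω} :
    proj hF hω x = 1 ↔ x ∈ Subgroup.center (Spor.threeJ3 F ω) := QuotientGroup.eq_one_iff x

/-- commutation with the involution lifts -/
theorem comm_z {x : Spor.threeJ3 F ω}
    (h : proj hF hω x * toJ hF hω zWord = toJ hF hω zWord * proj hF hω x) :
    (x : GL Spor.F9 F) * gW ω zWord = gW ω zWord * x := by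
  set zt : Spor.threeJ3 F ω := ⟨gW ω zWord, gW_mem hF hω zWord⟩
  have hz2 : zt * zt = 1 := Subtype.ext (z_facts hF hω).2.1
  set c := zt⁻¹ * (x * zt * x⁻¹)
  have hc : c ∈ Subgroup.center (Spor.threeJ3 F ω) := by
    rw [← proj_eq_one hF hω, map_mul, map_mul, map_mul, map_inv, map_inv,
      show proj hF hω zt = toJ hF hω zWord from rfl, h]
    group
  have hc2 : c * c = 1 := by
    have e : zt * c = x * zt * x⁻¹ := mul_inv_cancel_left _ _
    have h1 : (zt * c) * (zt * c) = 1 := by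
      rw [e, show x * zt * x⁻¹ * (x * zt * x⁻¹) = x * (zt * zt) * x⁻¹ by group, hz2]
      group
    rw [mul_assoc, ← mul_assoc c, ← Subgroup.mem_center_iff.1 hc zt, mul_assoc zt c,
      ← mul_assoc zt zt, hz2, one_mul] at h1
    exact h1
  have h3 : orderOf c ∣ 3 := by
    have h := Subgroup.orderOf_dvd_natCard _ hc
    rwa [card_center hF hω] at h
  have h2 : orderOf c ∣ 2 := orderOf_dvd_of_pow_eq_one (by rw [sq, hc2])
  have h1 : c = 1 := orderOf_eq_one_iff.1 (Nat.eq_one_of_dvd_coprimes (by norm_num) h3 h2)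
  have h4 : x * zt = zt * x := by
    rw [inv_mul_eq_one] at h1
    conv_rhs => rw [h1]
    group
  exact congrArg Subtype.val h4

/-- commutation inside the Sylow subgroup lifts -/
theorem comm_syl {x y : Spor.threeJ3 F ω} (hy : (y : GL Spor.F9 F) ∈ spanW ω sW sgIdx)
    (hxy : (x * y * x⁻¹ : Spor.threeJ3 F ω).1 ∈ spanW ω sW sgIdx)
    (h : proj hF hω x * proj hF hω y = proj hF hω y * proj hF hω x) :
    (x : GL Spor.F9 F) * y = y * x := by
  have hc : x * y * x⁻¹ * y⁻¹ = 1 := by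
    refine eq_one_of_center hF hω ?_ ?_
    · rw [← proj_eq_one hF hω, map_mul, map_mul, map_mul, map_inv, map_inv, h]
      group
    · rw [Subgroup.coe_mul, Subgroup.coe_inv]
      exact mul_mem hxy (inv_mem hy)
  exact congrArg Subtype.val (mul_inv_eq_iff_eq_mul.1 (mul_inv_eq_one.1 hc))

theorem ne_comm {g h : GL Spor.F9 F} {M N : List ℕ} (hg : Rep ω g M) (hh : Rep ω h N)
    (hne : Nat.beq (mKey (JankoThree.mul M N)) (mKey (JankoThree.mul N M)) = false) :
    g * h ≠ h * g := by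
  intro e
  have h1 := hg.mul (two_eq_zero hF) hω hh
  have h2 := hh.mul (two_eq_zero hF) hω hg
  rw [mKey_eq hF hω h1.1 h2.1 (by rw [← h1.2, ← h2.2, e]), Nat.beq_refl] at hne
  exact absurd hne (by decide)

theorem eq_comm_rep {g h k l : GL Spor.F9 F} {M N P Q : List ℕ} (hg : Rep ω g M) (hh : Rep ω h N)
    (hk : Rep ω k P) (hl : Rep ω l Q)
    (he : eqM (JankoThree.mul M N) (JankoThree.mul P Q) = true) : g * h = k * l :=
  (hg.mul (two_eq_zero hF) hω hh).eq (eqM_eq he ▸ hk.mul (two_eq_zero hF) hω hl)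

/-! ### The Sylow subgroup and the core in `J₃` -/

/-- the Sylow subgroup -/
noncomputable def syl (_hF : Fintype.card F = 4) (_hω : ω ^ 2 + ω + 1 = 0) : Subgroup (Spor.J3 F ω) :=
  ((spanW ω sW sgIdx).subgroupOf (Spor.threeJ3 F ω)).map (proj _hF _hω)

/-- the extraspecial subgroup -/
noncomputable def core (_hF : Fintype.card F = 4) (_hω : ω ^ 2 + ω + 1 = 0) : Subgroup (Spor.J3 F ω) :=
  ((spanW ω rW rgPos).subgroupOf (Spor.threeJ3 F ω)).map (proj _hF _hω)

/-- the central involution -/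
noncomputable def zJ : Spor.J3 F ω := toJ hF hω zWord

theorem mem_syl_iff {a : Spor.J3 F ω} : a ∈ syl hF hω ↔ ∃ j < 128, a = toJ hF hω (sW j) := by
  obtain ⟨-, -, -, hmem⟩ := grpOK_spec hF hω syl_ok
  constructor
  · rintro ⟨x, hx, rfl⟩
    obtain ⟨j, hj, e⟩ := (hmem _).1 hx
    exact ⟨j, hj, congrArg (proj hF hω) (Subtype.ext e :
      x = ⟨gW ω (sW j), gW_mem hF hω _⟩)⟩
  · rintro ⟨j, hj, rfl⟩
    exact ⟨⟨_, gW_mem hF hω _⟩, (hmem _).2 ⟨j, hj, rfl⟩, rfl⟩

theorem card_sylJ : Nat.card (syl hF hω) = 128 := by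
  rw [syl]
  let f : ((spanW ω sW sgIdx).subgroupOf (Spor.threeJ3 F ω)) →* Spor.J3 F ω :=
    (proj hF hω).comp (Subgroup.subtype _)
  have hinj : Function.Injective f := (injective_iff_map_eq_one f).2 fun x hx =>
    Subtype.ext (eq_one_of_center hF hω ((proj_eq_one hF hω).1 hx) x.2)
  rw [show ((spanW ω sW sgIdx).subgroupOf (Spor.threeJ3 F ω)).map (proj hF hω) = f.range by
    rw [MonoidHom.range_comp, Subgroup.range_subtype]]
  rw [← Nat.card_congr (MonoidHom.ofInjective hinj).toEquiv,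
    Nat.card_congr (Subgroup.subgroupOfEquivOfLe (syl_le hF hω)).toEquiv, card_syl hF hω]

omit hF hω in
theorem rList_lt {r : ℕ} (hr : r < 32) : rList.getD r 0 < 128 := by
  have h := lists_ok
  simp only [Bool.and_eq_true, beq_iff_eq, List.all_eq_true] at h
  obtain ⟨⟨⟨⟨⟨⟨⟨⟨⟨⟨⟨hlt, -⟩, -⟩, hlen⟩, -⟩, -⟩, -⟩, -⟩, -⟩, -⟩, -⟩, -⟩ := h
  rw [List.getD_eq_getElem _ _ (hlen.symm ▸ hr)]
  exact Nat.le_of_ble_eq_true (hlt _ (List.getElem_mem _))

omit hF hω in
theorem mem_rList {j : ℕ} (hj : rList.contains j = true) : ∃ r < 32, rList.getD r 0 = j := by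
  have h := lists_ok
  simp only [Bool.and_eq_true, beq_iff_eq, List.all_eq_true] at h
  obtain ⟨⟨⟨⟨⟨⟨⟨⟨⟨⟨⟨-, -⟩, -⟩, hlen⟩, -⟩, -⟩, -⟩, -⟩, -⟩, -⟩, -⟩, -⟩ := h
  simp only [List.contains_eq_mem, decide_eq_true_eq] at hj
  obtain ⟨r, hr, rfl⟩ := List.getElem_of_mem hj
  exact ⟨r, hlen ▸ hr, by rw [List.getD_eq_getElem _ _ hr]⟩

theorem core_le_span : spanW ω rW rgPos ≤ spanW ω sW sgIdx := by
  obtain ⟨-, -, -, hmem⟩ := grpOK_spec hF hω core_ok
  obtain ⟨-, -, -, hmemS⟩ := grpOK_spec hF hω syl_ok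
  intro x hx
  obtain ⟨r, hr, rfl⟩ := (hmem x).1 hx
  exact (hmemS _).2 ⟨_, rList_lt hr, rfl⟩

theorem mem_core_iff {a : Spor.J3 F ω} : a ∈ core hF hω ↔ ∃ r < 32, a = toJ hF hω (rW r) := by
  obtain ⟨-, -, -, hmem⟩ := grpOK_spec hF hω core_ok
  constructor
  · rintro ⟨x, hx, rfl⟩
    obtain ⟨j, hj, e⟩ := (hmem _).1 hx
    exact ⟨j, hj, congrArg (proj hF hω) (Subtype.ext e :
      x = ⟨gW ω (rW j), gW_mem hF hω _⟩)⟩
  · rintro ⟨j, hj, rfl⟩
    exact ⟨⟨_, gW_mem hF hω _⟩, (hmem _).2 ⟨j, hj, rfl⟩, rfl⟩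

theorem core_le : core hF hω ≤ syl hF hω :=
  Subgroup.map_mono fun _ hx => core_le_span hF hω hx

theorem z_mem_core : zJ hF hω ∈ core hF hω := by
  have h := lists_ok
  simp only [Bool.and_eq_true] at h
  obtain ⟨r, hr, e⟩ := mem_rList h.1.1.1.1.1.1.1.1.1.2
  refine (mem_core_iff hF hω).2 ⟨r, hr, congrArg (proj hF hω) (Subtype.ext ?_)⟩
  show gW ω zWord = gW ω (rW r)
  rw [rW, e, (z_facts hF hω).1]

theorem z_mem : zJ hF hω ∈ syl hF hω := core_le hF hω (z_mem_core hF hω)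

theorem z_ne_one : zJ hF hω ≠ 1 := fun h => (z_facts hF hω).2.2.2.1 (congrArg Subtype.val
  (eq_one_of_center hF hω ((proj_eq_one hF hω).1 h) (z_facts hF hω).2.2.1))

theorem z_sq : zJ hF hω * zJ hF hω = 1 :=
  (map_mul (proj hF hω) _ _).symm.trans ((congrArg (proj hF hω)
    (Subtype.ext (z_facts hF hω).2.1)).trans (map_one _))

/-! ### The normalizing elements -/

theorem nrm_spec {u : ℕ} (hu : u < 7) : Rep ω (gW ω (nW u)) (nPk u) ∧
    gW ω (nW u) * gW ω zWord = gW ω zWord * gW ω (nW u) ∧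
    (3 ≤ u → gW ω (nW u) * gW ω (nW u) = 1) ∧
    ∀ x ∈ spanW ω rW rgPos, gW ω (nW u) * x * (gW ω (nW u))⁻¹ ∈ spanW ω rW rgPos := by
  have h := List.all_eq_true.1 norm_ok u (List.mem_range.2 hu)
  simp only [Bool.and_eq_true, Bool.or_eq_true, List.all_eq_true, List.mem_range] at h
  obtain ⟨⟨⟨hp, hz⟩, hsq⟩, htab⟩ := h
  have hr : Rep ω (gW ω (nW u)) (nPk u) := eqM_eq hp ▸ rep_gW hF hω _
  have hzr := (z_facts hF hω).2.2.2.2.1
  refine ⟨hr, eq_comm_rep hF hω hr hzr hzr hr hz, fun h3 => ?_, ?_⟩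
  · rcases hsq with h | h
    · exact absurd (Nat.le_of_ble_eq_true h) (by omega)
    · exact (hr.mul (two_eq_zero hF) hω hr).eq (eqM_eq h ▸ Rep.one)
  · obtain ⟨hrep, -, -, hmem⟩ := grpOK_spec hF hω core_ok
    refine gen_ext rfl ?_
    rintro _ ⟨i, hi, rfl⟩
    obtain ⟨k, hk, rfl⟩ := List.getElem_of_mem hi
    have hi' : rgPos[k] < 32 := by
      have h := core_ok
      simp only [grpOK, Bool.and_eq_true, List.all_eq_true] at h
      exact Nat.le_of_ble_eq_true (h.1.1.2 _ hi)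
    obtain ⟨ht, he⟩ := htab k hk
    rw [List.getD_eq_getElem rgPos _ hk] at he
    have ht' := Nat.le_of_ble_eq_true ht
    rw [eq_comm_rep hF hω hr (hrep _ hi') (hrep _ ht') hr he, mul_inv_cancel_right]
    exact (hmem _).2 ⟨_, ht', rfl⟩

/-- the generated centralizer -/
noncomputable def cen : Subgroup (Spor.J3 F ω) :=
  Subgroup.closure {a | ∃ u < 7, a = toJ hF hω (nW u)}

theorem syl_le_cen : syl hF hω ≤ cen hF hω := by
  rintro _ ⟨x, hx, rfl⟩
  have hle : spanW ω sW sgIdx ≤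
      ((cen hF hω).comap (proj hF hω)).map (Subgroup.subtype _) := by
    rw [spanW, Subgroup.closure_le]
    rintro _ ⟨i, hi, rfl⟩
    obtain ⟨k, hk, rfl⟩ := List.getElem_of_mem hi
    have h := lists_ok
    simp only [Bool.and_eq_true, beq_iff_eq] at h
    have hk3 : k < 3 := h.1.1.1.1.1.2 ▸ hk
    refine ⟨⟨_, gW_mem hF hω (sW sgIdx[k])⟩, Subgroup.subset_closure ⟨k, by omega, ?_⟩, rfl⟩
    show toJ hF hω (sW sgIdx[k]) = toJ hF hω (nW k)
    simp only [nW, if_pos hk3, List.getD_eq_getElem _ _ hk]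
    rfl
  obtain ⟨y, hy, hyx⟩ := hle hx
  rwa [← Subtype.ext (show (y : GL Spor.F9 F) = x from hyx)]

theorem cen_le : cen hF hω ≤ Subgroup.centralizer {zJ hF hω} ∧
    cen hF hω ≤ Subgroup.normalizer (core hF hω : Set (Spor.J3 F ω)) := by
  have := Fintype.ofFinite (Spor.J3 F ω)
  refine ⟨?_, ?_⟩ <;> (rw [cen, Subgroup.closure_le]; rintro _ ⟨u, hu, rfl⟩)
  · refine Subgroup.mem_centralizer_singleton_iff.2 ?_
    exact (map_mul (proj hF hω) _ _).symm.trans ((congrArg (proj hF hω)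
      (Subtype.ext (nrm_spec hF hω hu).2.1)).trans (map_mul (proj hF hω) _ _))
  · refine Subgroup.mem_normalizer_fintype ?_
    rintro _ ⟨x, hx, rfl⟩
    have hmemC := (nrm_spec hF hω hu).2.2.2 (x : GL Spor.F9 F) (Subgroup.mem_subgroupOf.1 hx)
    refine Subgroup.mem_map.2 ⟨(⟨gW ω (nW u), gW_mem hF hω (nW u)⟩ : Spor.threeJ3 F ω) * x *
      (⟨gW ω (nW u), gW_mem hF hω (nW u)⟩ : Spor.threeJ3 F ω)⁻¹, Subgroup.mem_subgroupOf.2 ?_, ?_⟩
    · rw [Subgroup.coe_mul, Subgroup.coe_mul, Subgroup.coe_inv]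
      exact hmemC
    · rw [map_mul, map_mul, map_inv]
      rfl

theorem z_comm : ∀ s ∈ syl hF hω, s * zJ hF hω = zJ hF hω * s := fun _ hs =>
  Subgroup.mem_centralizer_singleton_iff.1 ((cen_le hF hω).1 (syl_le_cen hF hω hs))

theorem z_unique {a : Spor.J3 F ω} (ha : a ∈ syl hF hω)
    (hc : ∀ s ∈ syl hF hω, s * a = a * s) : a = 1 ∨ a = zJ hF hω := by
  obtain ⟨j, hj, rfl⟩ := (mem_syl_iff hF hω).1 ha
  obtain ⟨hrep, -, ⟨hone, hone'⟩, hmem⟩ := grpOK_spec hF hω syl_ok
  have h := List.all_eq_true.1 centre_ok j (List.mem_range.2 hj)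
  simp only [Bool.or_eq_true, List.any_eq_true, List.mem_range, Bool.not_eq_true'] at h
  rcases h with (h | h) | ⟨k, hk, hne⟩
  · left
    rw [Nat.eq_of_beq_eq_true h]
    exact (congrArg (proj hF hω) (Subtype.ext hone' :
      (⟨gW ω (sW oneIdx), gW_mem hF hω _⟩ : Spor.threeJ3 F ω) = 1)).trans (map_one _)
  · right
    rw [Nat.eq_of_beq_eq_true h]
    exact congrArg (proj hF hω) (Subtype.ext (z_facts hF hω).1)
  · exfalso
    have hl := lists_ok
    simp only [Bool.and_eq_true, beq_iff_eq] at hl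
    have hk' : k < sgIdx.length := hl.1.1.1.1.1.2.symm ▸ hk
    have hi : sgIdx.getD k 0 ∈ sgIdx := by
      rw [List.getD_eq_getElem _ _ hk']; exact List.getElem_mem hk'
    have hb : gW ω (sW (sgIdx.getD k 0)) ∈ spanW ω sW sgIdx :=
      Subgroup.subset_closure ⟨_, hi, rfl⟩
    obtain ⟨i, hi', hib⟩ := (hmem _).1 hb
    have hbr : Rep ω (gW ω (sW (sgIdx.getD k 0))) (sPk (sgIdx.getD k 0)) := by
      refine hrep _ ?_
      have h := syl_ok
      simp only [grpOK, Bool.and_eq_true, List.all_eq_true] at h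
      exact Nat.le_of_ble_eq_true (h.1.1.2 _ hi)
    have haS : gW ω (sW j) ∈ spanW ω sW sgIdx := (hmem _).2 ⟨j, hj, rfl⟩
    refine ne_comm hF hω (hrep j hj) hbr hne
      (comm_syl hF hω (x := ⟨_, gW_mem hF hω _⟩) (y := ⟨_, gW_mem hF hω _⟩) hb
        (mul_mem (mul_mem haS hb) (inv_mem haS)) ?_)
    exact (hc (toJ hF hω (sW (sgIdx.getD k 0))) ⟨⟨_, gW_mem hF hω _⟩, hb, rfl⟩).symm

theorem exists_order : ∀ q ∈ [3, 5], ∃ x ∈ cen hF hω, orderOf x = q ∧
    ∃ r ∈ core hF hω, x * r ≠ r * x := by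
  intro q hq
  obtain ⟨a, ha, ha6, ha3, hqp⟩ : ∃ a, (a, q) ∈ [((3 : ℕ), 3), (5, 5)] ∧ a + 1 < 7 ∧ 3 ≤ a ∧
      q.Prime := by
    rcases List.mem_cons.1 hq with rfl | hq'
    · exact ⟨3, by simp, by omega, le_rfl, by norm_num⟩
    · obtain rfl := List.mem_singleton.1 hq'
      exact ⟨5, by simp, by omega, by omega, by norm_num⟩
  have h := List.all_eq_true.1 order_ok _ ha
  simp only [Bool.and_eq_true, List.any_eq_true, Bool.not_eq_true'] at h
  obtain ⟨hpow, r, hr, hne⟩ := h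
  have hxr : Rep ω (gW ω (nW a) * gW ω (nW (a + 1))) (ordPk a) :=
    (nrm_spec hF hω (by omega)).1.mul (two_eq_zero hF) hω (nrm_spec hF hω ha6).1
  set xt : Spor.threeJ3 F ω := ⟨_, gW_mem hF hω (nW a)⟩ * ⟨_, gW_mem hF hω (nW (a + 1))⟩
  have hxpow : ∀ n, Rep ω ((gW ω (nW a) * gW ω (nW (a + 1))) ^ n) (pw (ordPk a) n) := by
    intro n
    induction n with
    | zero => rw [pow_zero]; exact Rep.one
    | succ n ih => rw [pow_succ']; exact hxr.mul (two_eq_zero hF) hω ih
  have hq1 : xt ^ q = 1 := Subtype.ext (by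
    rw [SubgroupClass.coe_pow]; exact (hxpow q).eq (eqM_eq hpow ▸ Rep.one))
  obtain ⟨hrep, -, -, hmem⟩ := grpOK_spec hF hω core_ok
  have hr32 : r < 32 := by
    have h := core_ok
    simp only [grpOK, Bool.and_eq_true, List.all_eq_true] at h
    exact Nat.le_of_ble_eq_true (h.1.1.2 _ hr)
  have hrm : gW ω (rW r) ∈ spanW ω rW rgPos := (hmem _).2 ⟨r, hr32, rfl⟩
  have hne' : proj hF hω xt * toJ hF hω (rW r) ≠ toJ hF hω (rW r) * proj hF hω xt := fun e => by
    refine ne_comm hF hω hxr (hrep r hr32) hne (comm_syl hF hω (x := xt)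
      (y := ⟨_, gW_mem hF hω (rW r)⟩) (core_le_span hF hω hrm) (core_le_span hF hω ?_) e)
    have h1 := (nrm_spec hF hω (u := a) (by omega)).2.2.2 _
      ((nrm_spec hF hω ha6).2.2.2 _ hrm)
    simpa [xt, mul_assoc] using h1
  refine ⟨proj hF hω xt, ?_, ?_, _, (mem_core_iff hF hω).2 ⟨r, hr32, rfl⟩, hne'⟩
  · rw [map_mul]
    exact mul_mem (Subgroup.subset_closure ⟨a, by omega, rfl⟩)
      (Subgroup.subset_closure ⟨a + 1, ha6, rfl⟩)
  · have : Fact q.Prime := ⟨hqp⟩
    refine orderOf_eq_prime (by rw [← map_pow, hq1, map_one]) fun h1 => ?_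
    rw [h1, one_mul, mul_one] at hne'
    exact hne' rfl

theorem dvd_card_cen : 1920 ∣ Nat.card (cen hF hω) := by
  have h128 : 128 ∣ Nat.card (cen hF hω) :=
    card_sylJ hF hω ▸ Subgroup.card_dvd_of_le (syl_le_cen hF hω)
  obtain ⟨x, hx, hox, -⟩ := exists_order hF hω 3 (by simp)
  obtain ⟨y, hy, hoy, -⟩ := exists_order hF hω 5 (by simp)
  have h3 : 3 ∣ Nat.card (cen hF hω) := by
    have h := Subgroup.orderOf_dvd_natCard _ hx
    rwa [hox] at h
  have h5 : 5 ∣ Nat.card (cen hF hω) := by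
    have h := Subgroup.orderOf_dvd_natCard _ hy
    rwa [hoy] at h
  exact Nat.Coprime.mul_dvd_of_dvd_of_dvd (m := 128) (n := 15) (by norm_num) h128
    (Nat.Coprime.mul_dvd_of_dvd_of_dvd (m := 3) (n := 5) (by norm_num) h3 h5)

/-! ### The order of the centralizer -/

omit hω in
theorem add_pow_two' (a b : F) : (a + b) ^ 2 = a ^ 2 + b ^ 2 := by
  linear_combination a * b * two_eq_zero hF

theorem toVec_one : ∑ i, toVec ω 1 i * toVec ω 1 i ^ 2 = 1 := by
  classical
  have h := toVec_pow_two hF hω (0 : Spor.F9)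
  rw [show (2 : ℕ) ^ ix (0 : Spor.F9) = 1 from rfl] at h
  simp [h, Pi.single_apply]

/-- the centralizer of the involution in the matrix group -/
def zCent (_hF : Fintype.card F = 4) (_hω : ω ^ 2 + ω + 1 = 0) : Subgroup (GL Spor.F9 F) :=
  Spor.threeJ3 F ω ⊓ Subgroup.centralizer {gW ω zWord}

theorem card_stab_le :
    Nat.card (MulAction.stabilizer (zCent hF hω) (baseLine ω)) ≤ 60 := by
  classical
  have key : ∀ x : MulAction.stabilizer (zCent hF hω) (baseLine ω), ∃ p : ℕ × ℕ,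
      p ∈ stabList ∧ ((x.1 : zCent hF hω) : GL Spor.F9 F) = rE ω p.1 * kE ω p.2 := by
    rintro ⟨⟨g, hg, hgc⟩, hx⟩
    obtain ⟨j, hj, t, ht, e⟩ :=
      (mem_stabGrp hF hω).1 (mem_stabGrp_of_fix hF hω hg hx)
    refine ⟨(j, t), ?_, e⟩
    simp only [stabList, List.mem_flatMap, List.mem_map, List.mem_filter, List.mem_range]
    refine ⟨j, hj, t, ⟨ht, ?_⟩, rfl⟩
    have hg' := (rep_rE hF hω hj).1.mul (two_eq_zero hF) hω (rep_kE hF hω ht)
    rw [← e] at hg'
    have hz := (z_facts hF hω).2.2.2.2.1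
    have h1 := hg'.mul (two_eq_zero hF) hω hz
    have h2 := hz.mul (two_eq_zero hF) hω hg'
    rw [mKey_eq hF hω h1.1 h2.1 (by
      rw [← h1.2, ← h2.2, Subgroup.mem_centralizer_singleton_iff.1 hgc])]
    exact Nat.beq_refl _
  choose f hf he using key
  have hle := Nat.card_le_card_of_injective (fun x => (⟨f x, List.mem_toFinset.2 (hf x)⟩ :
    {p // p ∈ stabList.toFinset})) fun x y h => Subtype.ext (Subtype.ext (by
      rw [he x, he y, show f x = f y from congrArg Subtype.val h]))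
  rw [Nat.card_eq_finsetCard] at hle
  exact hle.trans ((List.toFinset_card_le _).trans (Nat.le_of_ble_eq_true stab_ok))

theorem ncard_orbit_le :
    (MulAction.orbit (zCent hF hω) (baseLine ω)).ncard ≤ 256 := by
  classical
  have h2 := two_eq_zero hF
  set Z := ((gW ω zWord : GL Spor.F9 F) : Matrix Spor.F9 Spor.F9 F)
  obtain ⟨-, hzz, -, -, hzr, hfix, -⟩ := z_facts hF hω
  have hPz : ∀ u v, ∑ i, (Z *ᵥ u) i * (Z *ᵥ v) i ^ 2 = ∑ i, u i * v i ^ 2 :=
    presForm hF hω (gW_mem hF hω zWord)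
  have hZ2 : ∀ u, Z *ᵥ (Z *ᵥ u) = u := fun u => by
    rw [Matrix.mulVec_mulVec, show Z * Z = 1 from congrArg Units.val hzz, Matrix.one_mulVec]
  have htwo : ∀ a : Spor.F9 → F, a + a = 0 := fun a => funext fun i => by
    show a i + a i = 0
    linear_combination (a i) * h2
  let f : (Spor.F9 → F) →+ (Spor.F9 → F) :=
    { toFun := fun u => Z *ᵥ u + u
      map_zero' := by rw [Matrix.mulVec_zero, add_zero]
      map_add' := fun u v => by rw [Matrix.mulVec_add]; abel }
  have hU : f.range ≤ f.ker := by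
    rintro _ ⟨u, rfl⟩
    show Z *ᵥ (Z *ᵥ u + u) + (Z *ᵥ u + u) = 0
    rw [Matrix.mulVec_add, hZ2, add_comm u, htwo]
  have hnormU : ∀ v ∈ f.range, ∑ i, v i * v i ^ 2 = 0 := by
    rintro _ ⟨u, rfl⟩
    have e1 : ∑ i, (Z *ᵥ u) i * u i ^ 2 = ∑ i, u i * (Z *ᵥ u) i ^ 2 := by
      conv_rhs => rw [← hPz u (Z *ᵥ u), hZ2]
    show ∑ i, ((Z *ᵥ u) i + u i) * ((Z *ᵥ u) i + u i) ^ 2 = 0
    simp only [add_pow_two' hF, mul_add, add_mul, Finset.sum_add_distrib]
    rw [hPz u u, e1]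
    linear_combination ((∑ i, u i * u i ^ 2) + ∑ i, u i * (Z *ᵥ u) i ^ 2) * h2
  have hprod : Nat.card f.ker * Nat.card f.range = 262144 := by
    have h := AddSubgroup.card_mul_index f.ker
    rw [AddSubgroup.index_ker, Nat.card_eq_fintype_card (α := Spor.F9 → F), Fintype.card_fun,
      hF] at h
    exact h
  have h256 : 256 ≤ Nat.card f.range := by
    have h := img_ok
    simp only [Bool.and_eq_true, beq_iff_eq] at h
    have hf' : ∀ i : Fin imgList.length, f (toVec ω imgList[(i : ℕ)]) =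
        toVec ω (mv (sPk zIdx) imgList[(i : ℕ)] ^^^ imgList[(i : ℕ)]) := fun i => by
      rw [toVec_xor h2, toVec_mv h2 hω hzr.1, ← hzr.2]
      rfl
    have hinc : ∀ {l : List ℕ}, incr l = true → l.Pairwise (· < ·) := by
      intro l
      induction l with
      | nil => exact fun _ => List.Pairwise.nil
      | cons x l ih =>
        intro hl
        rcases l with _ | ⟨y, l⟩
        · exact List.pairwise_singleton _ x
        simp only [incr, Bool.and_eq_true] at hl
        have ih' := ih hl.2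
        refine List.pairwise_cons.2 ⟨fun w hw => ?_, ih'⟩
        rcases List.mem_cons.1 hw with rfl | hw'
        · exact Nat.le_of_ble_eq_true hl.1
        · exact lt_trans (Nat.le_of_ble_eq_true hl.1) ((List.pairwise_cons.1 ih').1 w hw')
    have hnd : (imgList.map imgKey).Nodup := (hinc h.1).imp fun hlt => hlt.ne
    have hle := Nat.card_le_card_of_injective (fun i : Fin imgList.length =>
      (⟨_, ⟨toVec ω imgList[(i : ℕ)], rfl⟩⟩ : f.range)) fun a b hab => by
        have he : f (toVec ω imgList[(a : ℕ)]) = f (toVec ω imgList[(b : ℕ)]) :=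
          congrArg Subtype.val hab
        rw [hf', hf'] at he
        have hk := key_eq_of_toVec h2 hω he
        refine Fin.ext ((hnd.getElem_inj_iff (hi := by simp) (hj := by simp)).1 ?_)
        simpa [imgKey] using hk
    rwa [Nat.card_fin, h.2] at hle
  set O := MulAction.orbit (zCent hF hω) (baseLine ω)
  have hOv : ∀ L : O, ∃ v : Spor.F9 → F,
      v ∈ f.ker ∧ ∑ i, v i * v i ^ 2 = 1 ∧ L.1 = F ∙ v := by
    rintro ⟨L, ⟨⟨g, hg, hgc⟩, rfl⟩⟩
    refine ⟨(g : Matrix Spor.F9 Spor.F9 F) *ᵥ toVec ω 1, ?_, ?_, ?_⟩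
    · show Z *ᵥ ((g : Matrix Spor.F9 Spor.F9 F) *ᵥ toVec ω 1) + _ = 0
      have hZ1 : Z *ᵥ toVec ω 1 = toVec ω 1 := by
        show ((gW ω zWord : GL Spor.F9 F) : Matrix Spor.F9 Spor.F9 F) *ᵥ _ = _
        rw [hzr.2, ← toVec_mv h2 hω hzr.1, hfix]
      rw [Matrix.mulVec_mulVec, show Z * (g : Matrix Spor.F9 Spor.F9 F) = g * Z from
        (congrArg Units.val (Subgroup.mem_centralizer_singleton_iff.1 hgc)).symm,
        ← Matrix.mulVec_mulVec, hZ1, htwo]
    · rw [presForm hF hω hg, toVec_one hF hω]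
    · show g • ln ω 1 = _
      rw [ln, smul_span]
  choose v hvW hvn hvL using hOv
  have hcube : ∀ c : Fˣ, ∀ L : O, ∑ i, ((c : F) • v L) i * ((c : F) • v L) i ^ 2 = 1 := by
    intro c L
    have e : ∀ i, ((c : F) • v L) i * ((c : F) • v L) i ^ 2 = v L i * v L i ^ 2 := fun i => by
      simp only [Pi.smul_apply, smul_eq_mul]
      linear_combination (v L i * v L i ^ 2) * cube_eq_one hF hω c.ne_zero
    simp only [e, hvn L]
  have hin : ∀ p : O × Fˣ, (p.2 : F) • v p.1 ∈ (f.ker : Set (Spor.F9 → F)) \ f.range := by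
    intro p
    refine ⟨?_, fun hr => ?_⟩
    · show Z *ᵥ ((p.2 : F) • v p.1) + (p.2 : F) • v p.1 = 0
      rw [Matrix.mulVec_smul, ← smul_add, show Z *ᵥ v p.1 + v p.1 = 0 from hvW p.1, smul_zero]
    · exact one_ne_zero ((hcube p.2 p.1).symm.trans (hnormU _ hr))
  have hinj : Function.Injective fun p : O × Fˣ => (⟨_, hin p⟩ :
      ((f.ker : Set (Spor.F9 → F)) \ f.range : Set (Spor.F9 → F))) := by
    rintro ⟨L, c⟩ ⟨L', c'⟩ h
    have h' : (c : F) • v L = (c' : F) • v L' := congrArg Subtype.val h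
    have hL : L = L' := Subtype.ext (by
      rw [hvL L, hvL L', ← Submodule.span_singleton_smul_eq c.isUnit (v L), h',
        Submodule.span_singleton_smul_eq c'.isUnit (v L')])
    subst hL
    have hv0 : v L ≠ 0 := fun h0 => by
      have := hvn L
      simp [h0] at this
    obtain ⟨i, hi⟩ := Function.ne_iff.1 hv0
    exact Prod.ext rfl (Units.ext (mul_right_cancel₀ hi (congrFun h' i)))
  have hle := Nat.card_le_card_of_injective _ hinj
  rw [Nat.card_prod, Nat.card_units, Nat.card_eq_fintype_card (α := F), hF, Nat.card_coe_set_eq,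
    Nat.card_coe_set_eq, Set.ncard_sdiff (show (f.range : Set (Spor.F9 → F)) ⊆ f.ker from hU),
    ← Nat.card_coe_set_eq, ← Nat.card_coe_set_eq] at hle
  change O.ncard * (4 - 1) ≤ Nat.card f.ker - Nat.card f.range at hle
  have h1024 : Nat.card f.ker ≤ 1024 := by
    by_contra hc
    nlinarith
  omega

theorem card_zCent_le : Nat.card (zCent hF hω) ≤ 15360 := by
  have h := (MulAction.stabilizer (zCent hF hω) (baseLine ω)).card_mul_index
  rw [MulAction.index_stabilizer] at h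
  calc Nat.card (zCent hF hω)
      = Nat.card (MulAction.stabilizer (zCent hF hω) (baseLine ω)) *
          (MulAction.orbit (zCent hF hω) (baseLine ω)).ncard := h.symm
    _ ≤ 60 * 256 := Nat.mul_le_mul (card_stab_le hF hω) (ncard_orbit_le hF hω)

theorem card_centralizer_le :
    Nat.card ↥(Subgroup.centralizer ({zJ hF hω} : Set (Spor.J3 F ω))) ≤ 5120 := by
  set C := Subgroup.centralizer ({zJ hF hω} : Set (Spor.J3 F ω))
  have hsurj : Function.Surjective (proj hF hω) := QuotientGroup.mk'_surjective _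
  let φ : zCent hF hω → C := fun x => ⟨proj hF hω ⟨x, x.2.1⟩,
    Subgroup.mem_centralizer_singleton_iff.2 ((map_mul (proj hF hω) _ _).symm.trans
      ((congrArg (proj hF hω) (Subtype.ext (Subgroup.mem_centralizer_singleton_iff.1 x.2.2) :
        (⟨x, x.2.1⟩ * ⟨gW ω zWord, gW_mem hF hω _⟩ : Spor.threeJ3 F ω) =
          ⟨gW ω zWord, gW_mem hF hω _⟩ * ⟨x, x.2.1⟩)).trans (map_mul (proj hF hω) _ _)))⟩
  -- every fibre has three points
  let cz := Subgroup.center (Spor.threeJ3 F ω)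
  have hlift : ∀ c : C, ∃ x : zCent hF hω, φ x = c := by
    intro c
    obtain ⟨y, hy⟩ := hsurj c.1
    exact ⟨⟨y, y.2, Subgroup.mem_centralizer_singleton_iff.2 (comm_z hF hω
      (by rw [hy]; exact Subgroup.mem_centralizer_singleton_iff.1 c.2))⟩, Subtype.ext hy⟩
  choose s hs using hlift
  let ψ : C × cz → zCent hF hω := fun p =>
    ⟨(s p.1).1 * (p.2.1 : GL Spor.F9 F), mul_mem (s p.1).2.1 p.2.1.2,
      mul_mem (s p.1).2.2 (Subgroup.mem_centralizer_singleton_iff.2 (congrArg Subtype.val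
        (Subgroup.mem_center_iff.1 p.2.2 ⟨gW ω zWord, gW_mem hF hω _⟩)).symm)⟩
  have hψ : Function.Injective ψ := by
    rintro ⟨c, a⟩ ⟨d, b⟩ h
    have h1 : (⟨(s c).1, (s c).2.1⟩ * a.1 : Spor.threeJ3 F ω) = ⟨(s d).1, (s d).2.1⟩ * b.1 :=
      Subtype.ext (congrArg (fun w : zCent hF hω => (w : GL Spor.F9 F)) h)
    have hcd : c = d := by
      have h2 := congrArg (proj hF hω) h1
      rw [map_mul, map_mul, (proj_eq_one hF hω).2 a.2, (proj_eq_one hF hω).2 b.2, mul_one,
        mul_one] at h2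
      rw [← hs c, ← hs d]
      exact Subtype.ext h2
    subst hcd
    exact Prod.ext rfl (Subtype.ext (mul_left_cancel h1))
  have hle := Nat.card_le_card_of_injective ψ hψ
  rw [Nat.card_prod, card_center hF hω] at hle
  have := card_zCent_le hF hω
  omega

theorem card_centralizer :
    Nat.card ↥(Subgroup.centralizer ({zJ hF hω} : Set (Spor.J3 F ω))) = 1920 := by
  obtain ⟨k, hk⟩ := (dvd_card_cen hF hω).trans (Subgroup.card_dvd_of_le (cen_le hF hω).1)
  have hle := card_centralizer_le hF hω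
  have hd := Subgroup.card_subgroup_dvd_card (Subgroup.centralizer ({zJ hF hω} : Set (Spor.J3 F ω)))
  rw [card_J3 hF hω, hk] at hd
  have hpos : 0 < Nat.card ↥(Subgroup.centralizer ({zJ hF hω} : Set (Spor.J3 F ω))) :=
    Nat.card_pos
  have hk2 : k ≤ 2 := by omega
  interval_cases k
  · omega
  · omega
  · norm_num at hd

theorem cen_eq : cen hF hω = Subgroup.centralizer {zJ hF hω} := by
  refine Subgroup.eq_of_le_of_card_ge (cen_le hF hω).1 ?_
  rw [card_centralizer hF hω]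
  exact Nat.le_of_dvd Nat.card_pos (dvd_card_cen hF hω)

theorem card_cen : Nat.card (cen hF hω) = 1920 := by
  rw [cen_eq hF hω]; exact card_centralizer hF hω

theorem centralizer_core {g : Spor.J3 F ω} (hc : ∀ r ∈ core hF hω, r * g = g * r) :
    g ∈ core hF hω := by
  have hgc : g ∈ cen hF hω := by
    rw [cen_eq hF hω]
    exact Subgroup.mem_centralizer_singleton_iff.2 (hc _ (z_mem_core hF hω)).symm
  set C : Subgroup (cen hF hω) :=
    (Subgroup.centralizer (core hF hω : Set (Spor.J3 F ω))).subgroupOf (cen hF hω)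
  have : C.Normal := by
    refine ⟨fun x hx y => ?_⟩
    intro r hr
    have h1 := hx _ ((Subgroup.mem_normalizer_iff''.1 ((cen_le hF hω).2 y.2) r).1 hr)
    show r * ((y : Spor.J3 F ω) * x * (y : Spor.J3 F ω)⁻¹) =
      (y : Spor.J3 F ω) * x * (y : Spor.J3 F ω)⁻¹ * r
    calc r * ((y : Spor.J3 F ω) * x * (y : Spor.J3 F ω)⁻¹)
        = y * (((y : Spor.J3 F ω)⁻¹ * r * y) * x) * (y : Spor.J3 F ω)⁻¹ := by group
      _ = y * (x * ((y : Spor.J3 F ω)⁻¹ * r * y)) * (y : Spor.J3 F ω)⁻¹ :=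
          congrArg (fun t => (y : Spor.J3 F ω) * t * (y : Spor.J3 F ω)⁻¹) h1
      _ = _ := by group
  have hq : ∀ q ∈ [3, 5], ¬ q ∣ Nat.card C := by
    intro q hqm hdvd
    obtain ⟨x, hx, hox, r, hr, hne⟩ := exists_order hF hω q hqm
    have hxC : (⟨x, hx⟩ : cen hF hω) ∉ C := fun h => hne (h r hr).symm
    have hqp : q.Prime := by
      simp only [List.mem_cons, List.not_mem_nil, or_false] at hqm
      rcases hqm with rfl | rfl <;> norm_num
    have ho : orderOf ((⟨x, hx⟩ : cen hF hω) : cen hF hω ⧸ C) = q := by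
      refine ((Nat.dvd_prime hqp).1 ?_).resolve_left fun h => hxC ?_
      · have h2 := orderOf_map_dvd (QuotientGroup.mk' C) (⟨x, hx⟩ : cen hF hω)
        rwa [Subgroup.orderOf_mk, hox] at h2
      · exact (QuotientGroup.eq_one_iff _).1 (orderOf_eq_one_iff.1 h)
    have h1 : q * q ∣ Nat.card (cen hF hω) := by
      rw [← C.card_mul_index]
      exact Nat.mul_dvd_mul hdvd (ho ▸ orderOf_dvd_natCard _)
    rw [card_cen hF hω] at h1
    simp only [List.mem_cons, List.not_mem_nil, or_false] at hqm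
    rcases hqm with rfl | rfl <;> norm_num at h1
  have hC : Nat.card C ∣ 128 := by
    have h1 : Nat.card C ∣ 128 * (3 * 5) := by
      have h2 := Subgroup.card_subgroup_dvd_card C
      rwa [card_cen hF hω] at h2
    refine (Nat.Coprime.dvd_mul_right ?_).1 h1
    refine Nat.Coprime.mul_right ?_ ?_
    · exact ((Nat.Prime.coprime_iff_not_dvd (by norm_num)).2 (hq 3 (by simp))).symm
    · exact ((Nat.Prime.coprime_iff_not_dvd (by norm_num)).2 (hq 5 (by simp))).symm
  have : Fact (Nat.Prime 2) := ⟨Nat.prime_two⟩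
  have hCp : IsPGroup 2 C := by
    obtain ⟨i, -, hi⟩ := (Nat.dvd_prime_pow Nat.prime_two).1 (show Nat.card C ∣ 2 ^ 7 from hC)
    exact IsPGroup.iff_card.2 ⟨i, hi⟩
  let P : Sylow 2 (cen hF hω) := Sylow.ofCard ((syl hF hω).subgroupOf (cen hF hω)) (by
    rw [Nat.card_congr (Subgroup.subgroupOfEquivOfLe (syl_le_cen hF hω)).toEquiv, card_sylJ hF hω,
      card_cen hF hω, show (1920 : ℕ) = 2 ^ 7 * 15 by norm_num,
      Nat.factorization_mul (by norm_num) (by norm_num)]
    simp only [Finsupp.coe_add, Pi.add_apply, Nat.prime_two.factorization_pow,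
      Finsupp.single_eq_same,
      Nat.factorization_eq_zero_of_not_dvd (show ¬ 2 ∣ 15 by norm_num), add_zero]
    norm_num)
  have hgsyl : g ∈ syl hF hω := by
    have hsup := P.3 (P.2.to_sup_of_normal_right hCp) le_sup_left
    have hgC : (⟨g, hgc⟩ : cen hF hω) ∈ C := fun r hr => hc r hr
    have h2 : (⟨g, hgc⟩ : cen hF hω) ∈ (P : Subgroup (cen hF hω)) :=
      hsup.le (Subgroup.mem_sup_right hgC)
    exact Subgroup.mem_subgroupOf.1 h2
  obtain ⟨j, hj, rfl⟩ := (mem_syl_iff hF hω).1 hgsyl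
  have h := List.all_eq_true.1 centric_ok j (List.mem_range.2 hj)
  simp only [Bool.or_eq_true, List.any_eq_true, Bool.not_eq_true'] at h
  rcases h with hjr | ⟨r, hr, hne⟩
  · obtain ⟨r, hr, e⟩ := mem_rList hjr
    exact (mem_core_iff hF hω).2 ⟨r, hr, by rw [rW, e]⟩
  · exfalso
    obtain ⟨hrep, -, -, hmem⟩ := grpOK_spec hF hω syl_ok
    obtain ⟨hrepR, -, -, hmemR⟩ := grpOK_spec hF hω core_ok
    have hr32 : r < 32 := by
      have h := core_ok
      simp only [grpOK, Bool.and_eq_true, List.all_eq_true] at h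
      exact Nat.le_of_ble_eq_true (h.1.1.2 _ hr)
    have hb := core_le_span hF hω ((hmemR _).2 ⟨r, hr32, rfl⟩ : gW ω (rW r) ∈ _)
    have haS : gW ω (sW j) ∈ spanW ω sW sgIdx := (hmem _).2 ⟨j, hj, rfl⟩
    refine ne_comm hF hω (hrep j hj) (hrepR r hr32) hne
      (comm_syl hF hω (x := ⟨_, gW_mem hF hω _⟩) (y := ⟨_, gW_mem hF hω _⟩) hb
        (mul_mem (mul_mem haS hb) (inv_mem haS)) ?_)
    exact (hc _ ((mem_core_iff hF hω).2 ⟨r, hr32, rfl⟩)).symm

/-! ### Involutions and fusion -/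

theorem conj_rep {k : ℕ} (hk : k < conjWords.length) :
    Rep ω (gW ω (conjWords.getD k [])) (conjPk.getD k onePk) :=
  eqM_eq (List.all_eq_true.1 conj_ok k (List.mem_range.2 hk)) ▸ rep_gW hF hω _

theorem exists_conj_z {a : Spor.J3 F ω} (ha : a ∈ syl hF hω) (h2 : orderOf a = 2) :
    IsConj (zJ hF hω) a := by
  obtain ⟨j, hj, rfl⟩ := (mem_syl_iff hF hω).1 ha
  obtain ⟨hrep, -, ⟨-, hone'⟩, hmem⟩ := grpOK_spec hF hω syl_ok
  set xt : Spor.threeJ3 F ω := ⟨gW ω (sW j), gW_mem hF hω _⟩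
  have h := List.all_eq_true.1 inv_ok j (List.mem_range.2 hj)
  simp only [Bool.or_eq_true, Bool.and_eq_true, Bool.not_eq_true'] at h
  rcases h with (h | h) | ⟨hk, he⟩
  · exfalso
    have h1 : toJ hF hω (sW j) = 1 := by
      rw [Nat.eq_of_beq_eq_true h]
      exact (congrArg (proj hF hω) (Subtype.ext hone' :
        (⟨gW ω (sW oneIdx), gW_mem hF hω _⟩ : Spor.threeJ3 F ω) = 1)).trans (map_one _)
    rw [h1, orderOf_one] at h2
    omega
  · exfalso
    have hsq : xt * xt = 1 := by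
      refine eq_one_of_center hF hω ((proj_eq_one hF hω).1 ?_)
        (mul_mem ((hmem _).2 ⟨j, hj, rfl⟩) ((hmem _).2 ⟨j, hj, rfl⟩))
      rw [map_mul]
      have := pow_orderOf_eq_one (toJ hF hω (sW j))
      rwa [h2, sq] at this
    have h1 := (hrep j hj).mul (two_eq_zero hF) hω (hrep j hj)
    have h0 : Rep ω (1 : GL Spor.F9 F) onePk := Rep.one
    have hsq' : gW ω (sW j) * gW ω (sW j) = 1 := congrArg Subtype.val hsq
    rw [mKey_eq hF hω h1.1 h0.1 (by rw [← h1.2, ← h0.2, hsq']),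
      Nat.beq_refl] at h
    exact absurd h (by decide)
  · have hk' := Nat.le_of_ble_eq_true hk
    have e := eq_comm_rep hF hω (conj_rep hF hω hk') (z_facts hF hω).2.2.2.2.1 (hrep j hj)
      (conj_rep hF hω hk') he
    refine isConj_iff.2 ⟨toJ hF hω (conjWords.getD (invConj.getD j 0) []), ?_⟩
    rw [mul_inv_eq_iff_eq_mul]
    exact (map_mul (proj hF hω) _ _).symm.trans ((congrArg (proj hF hω) (Subtype.ext e)).trans
      (map_mul (proj hF hω) _ _))

/-- the Sylow subgroup of `J₃` -/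
noncomputable def sylow : Sylow 2 (Spor.J3 F ω) :=
  have : Fact (Nat.Prime 2) := ⟨Nat.prime_two⟩
  Sylow.ofCard (syl hF hω) (by
    rw [card_sylJ hF hω, card_J3 hF hω, show (50232960 : ℕ) = 2 ^ 7 * 392445 by norm_num,
      Nat.factorization_mul (by norm_num) (by norm_num)]
    simp only [Finsupp.coe_add, Pi.add_apply, Nat.prime_two.factorization_pow,
      Finsupp.single_eq_same,
      Nat.factorization_eq_zero_of_not_dvd (show ¬ 2 ∣ 392445 by norm_num), add_zero]
    norm_num)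

theorem one_class {x y : Spor.J3 F ω} (hx : orderOf x = 2) (hy : orderOf y = 2) : IsConj x y := by
  have : Fact (Nat.Prime 2) := ⟨Nat.prime_two⟩
  have key : ∀ x : Spor.J3 F ω, orderOf x = 2 → IsConj (zJ hF hω) x := by
    intro x hx
    have hp : IsPGroup 2 (Subgroup.zpowers x) :=
      IsPGroup.iff_card.2 ⟨1, by rw [Nat.card_zpowers, hx, pow_one]⟩
    obtain ⟨Q, hQ⟩ := hp.exists_le_sylow
    obtain ⟨g, hg⟩ := MulAction.exists_smul_eq (Spor.J3 F ω) Q (sylow hF hω)
    have hmem : g * x * g⁻¹ ∈ syl hF hω := by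
      show g * x * g⁻¹ ∈ ((sylow hF hω : Sylow 2 (Spor.J3 F ω)) : Subgroup _)
      rw [← hg, Sylow.coe_subgroup_smul]
      exact Subgroup.smul_mem_pointwise_smul _ (MulAut.conj g) _ (hQ (Subgroup.mem_zpowers x))
    have ho : orderOf (g * x * g⁻¹) = 2 := by
      rw [← hx]
      exact orderOf_injective (MulAut.conj g).toMonoidHom (MulAut.conj g).injective x
    exact (exists_conj_z hF hω hmem ho).trans (isConj_iff.2 ⟨g⁻¹, by group⟩)
  exact (key x hx).symm.trans (key y hy)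

/-! ### The fusion system -/

theorem closed_eq_top {T : Subgroup (Spor.J3 F ω)} (hw : zJ hF hω ∈ T)
    (hcl : ∀ g x, x ∈ T → g * x * g⁻¹ ∈ syl hF hω → g * x * g⁻¹ ∈ T) : syl hF hω ≤ T := by
  obtain ⟨hrep, -, -, hmem⟩ := grpOK_spec hF hω syl_ok
  have key : ∀ (es : List (Bool × ℕ × ℕ × ℕ)) (known : List ℕ),
      (∀ j ∈ known, j < 128 ∧ toJ hF hω (sW j) ∈ T) → closureOK known es = true →
      ∀ i ∈ sgIdx, toJ hF hω (sW i) ∈ T := by
    intro es
    induction es with
    | nil =>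
      intro known hk hok i hi
      simp only [closureOK, List.all_eq_true, List.contains_eq_mem, decide_eq_true_eq] at hok
      exact (hk i (hok i hi)).2
    | cons e es ih =>
      intro known hk hok
      simp only [closureOK, Bool.and_eq_true] at hok
      refine ih _ (fun j hj => ?_) hok.2
      rcases List.mem_append.1 hj with hj | hj
      · exact hk j hj
      rw [List.mem_singleton] at hj
      subst hj
      have hget : ∀ i, i < known.length →
          known.getD i 0 < 128 ∧ toJ hF hω (sW (known.getD i 0)) ∈ T :=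
        fun i hi => hk _ (by rw [List.getD_eq_getElem _ _ hi]; exact List.getElem_mem hi)
      obtain ⟨⟨bb, i, j, t⟩, rfl⟩ : ∃ q, e = q := ⟨e, rfl⟩
      have hst := hok.1
      cases bb with
      | false =>
        simp only [stepOK, Bool.and_eq_true] at hst
        obtain ⟨hx, hxT⟩ := hget i (Nat.le_of_ble_eq_true hst.1.1.1)
        obtain ⟨hy, hyT⟩ := hget j (Nat.le_of_ble_eq_true hst.1.1.2)
        have ht := Nat.le_of_ble_eq_true hst.1.2
        refine ⟨ht, ?_⟩
        have e := (hrep t ht).eq (eqM_eq hst.2 ▸ (hrep _ hx).mul (two_eq_zero hF) hω (hrep _ hy))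
        show proj hF hω ⟨gW ω (sW t), gW_mem hF hω _⟩ ∈ T
        rw [show (⟨gW ω (sW t), gW_mem hF hω _⟩ : Spor.threeJ3 F ω) =
          ⟨_, gW_mem hF hω (sW (known.getD i 0))⟩ * ⟨_, gW_mem hF hω (sW (known.getD j 0))⟩ from
            Subtype.ext e, map_mul]
        exact mul_mem hxT hyT
      | true =>
        simp only [stepOK, Bool.and_eq_true] at hst
        obtain ⟨hx, hxT⟩ := hget i (Nat.le_of_ble_eq_true hst.1.1.1)
        have hj := Nat.le_of_ble_eq_true hst.1.1.2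
        have ht := Nat.le_of_ble_eq_true hst.1.2
        refine ⟨ht, ?_⟩
        have e := eq_comm_rep hF hω (conj_rep hF hω hj) (hrep _ hx) (hrep t ht)
          (conj_rep hF hω hj) hst.2
        have e' : toJ hF hω (conjWords.getD j []) * toJ hF hω (sW (known.getD i 0)) *
            (toJ hF hω (conjWords.getD j []))⁻¹ = toJ hF hω (sW t) := by
          rw [mul_inv_eq_iff_eq_mul]
          exact (map_mul (proj hF hω) _ _).symm.trans ((congrArg (proj hF hω) (Subtype.ext e)).trans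
            (map_mul (proj hF hω) _ _))
        rw [← e']
        exact hcl _ _ hxT (e'.symm ▸ (mem_syl_iff hF hω).2 ⟨t, ht, rfl⟩)
  have hgen := key steps [zIdx] (fun j hj => by
    rw [List.mem_singleton.1 hj]
    refine ⟨(z_facts hF hω).2.2.2.2.2.2, ?_⟩
    rwa [show toJ hF hω (sW zIdx) = zJ hF hω from
      congrArg (proj hF hω) (Subtype.ext (z_facts hF hω).1)]) closure_ok
  rintro _ ⟨x, hx, rfl⟩
  have hle : spanW ω sW sgIdx ≤ (T.comap (proj hF hω)).map (Subgroup.subtype _) := by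
    rw [spanW, Subgroup.closure_le]
    rintro _ ⟨i, hi, rfl⟩
    exact ⟨⟨_, gW_mem hF hω (sW i)⟩, hgen i hi, rfl⟩
  obtain ⟨y, hy, hyx⟩ := hle hx
  rwa [← Subtype.ext (show (y : GL Spor.F9 F) = x from hyx)]

theorem isSimple_sylow {G : Type*} [Group G] [Finite G] (ψ : G ≃* Spor.J3 F ω) (S : Sylow 2 G)
    (hS : (S : Subgroup G) = (syl hF hω).comap ψ.toMonoidHom) :
    (Cfsg.groupFusionSystem (S : Subgroup G)).IsSimple 2 := by
  have hmem : ∀ x, x ∈ (S : Subgroup G) ↔ ψ x ∈ syl hF hω := fun x => by rw [hS]; rfl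
  have hw : ψ (ψ.symm (zJ hF hω)) = zJ hF hω := ψ.apply_symm_apply _
  set w := ψ.symm (zJ hF hω)
  refine Fus.CentralInvolution.isSimple S (z := w) (R := (core hF hω).comap ψ.toMonoidHom)
    ((hmem w).2 (hw.symm ▸ z_mem hF hω))
    (fun h => z_ne_one hF hω (by rw [← hw, h, map_one])) ?_ ?_ ?_ ?_ ?_ ?_ ?_
  · intro s hs
    exact ψ.injective (by rw [map_mul, map_mul, hw]; exact z_comm hF hω _ ((hmem s).1 hs))
  · intro x hx hc
    refine (z_unique hF hω ((hmem x).1 hx) fun s hs => ?_).imp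
      (fun h => ψ.injective (h.trans (map_one ψ).symm)) fun h => ψ.injective (h.trans hw.symm)
    obtain ⟨s', rfl⟩ := ψ.surjective s
    rw [← map_mul, ← map_mul, hc s' ((hmem s').2 hs)]
  · intro x hx
    exact (hmem x).2 (core_le hF hω hx)
  · intro s hs
    have hn := (cen_le hF hω).2 (syl_le_cen hF hω ((hmem s).1 hs))
    refine Subgroup.mem_normalizer_iff.2 fun x => ?_
    show ψ x ∈ core hF hω ↔ ψ (s * x * s⁻¹) ∈ core hF hω
    rw [map_mul, map_mul, map_inv]
    exact Subgroup.mem_normalizer_iff.1 hn _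
  · intro x hx
    refine centralizer_core hF hω fun r hr => ?_
    obtain ⟨r', rfl⟩ := ψ.surjective r
    show ψ r' * ψ x = ψ x * ψ r'
    rw [← map_mul, ← map_mul, hx r' hr]
  · intro g hg
    have h1 : ψ g ∈ cen hF hω := by
      rw [cen_eq hF hω]
      exact Subgroup.mem_centralizer_singleton_iff.2 (by rw [← hw, ← map_mul, hg, map_mul])
    suffices ∀ b ∈ cen hF hω, ψ.symm b ∈ Subgroup.closure
        {a : G | a ∈ Subgroup.normalizer
          (((core hF hω).comap ψ.toMonoidHom : Subgroup G) : Set G) ∧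
          ∃ k : ℕ, orderOf a = 2 ^ k} by simpa using this _ h1
    have hle : cen hF hω ≤ (Subgroup.closure
        {a : G | a ∈ Subgroup.normalizer
          (((core hF hω).comap ψ.toMonoidHom : Subgroup G) : Set G) ∧
          ∃ k : ℕ, orderOf a = 2 ^ k}).comap ψ.symm.toMonoidHom := by
      conv_lhs => rw [cen]
      rw [Subgroup.closure_le]
      rintro _ ⟨u, hu, rfl⟩
      refine Subgroup.subset_closure ⟨?_, ?_⟩
      · have hn := (cen_le hF hω).2 (show toJ hF hω (nW u) ∈ cen hF hω from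
          Subgroup.subset_closure ⟨u, hu, rfl⟩)
        refine Subgroup.mem_normalizer_iff.2 fun x => ?_
        show ψ x ∈ core hF hω ↔ ψ (ψ.symm _ * x * (ψ.symm _)⁻¹) ∈ core hF hω
        rw [map_mul, map_mul, map_inv, ψ.apply_symm_apply]
        exact Subgroup.mem_normalizer_iff.1 hn _
      · show ∃ k : ℕ, orderOf (ψ.symm (toJ hF hω (nW u))) = 2 ^ k
        rw [ψ.symm.orderOf_eq]
        by_cases h3 : u < 3
        · have hu' : toJ hF hω (nW u) ∈ syl hF hω := by
            refine ⟨⟨_, gW_mem hF hω _⟩, Subgroup.subset_closure ⟨sgIdx.getD u 0, ?_, ?_⟩, rfl⟩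
            · have hl := lists_ok
              simp only [Bool.and_eq_true, beq_iff_eq] at hl
              have hu' : u < sgIdx.length := hl.1.1.1.1.1.2.symm ▸ h3
              rw [List.getD_eq_getElem _ _ hu']
              exact List.getElem_mem hu'
            · show gW ω (nW u) = _
              rw [nW, if_pos h3]
          have hd : orderOf (toJ hF hω (nW u)) ∣ 2 ^ 7 :=
            (show (2 : ℕ) ^ 7 = 128 by norm_num) ▸ card_sylJ hF hω ▸
              Subgroup.orderOf_dvd_natCard _ hu'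
          obtain ⟨i, -, hi⟩ := (Nat.dvd_prime_pow Nat.prime_two).1 hd
          exact ⟨i, hi⟩
        · have hd : orderOf (toJ hF hω (nW u)) ∣ 2 ^ 1 := orderOf_dvd_of_pow_eq_one (by
            rw [pow_one, sq]
            exact (map_mul (proj hF hω) _ _).symm.trans ((congrArg (proj hF hω)
              (Subtype.ext ((nrm_spec hF hω hu).2.2.1 (by omega)))).trans (map_one _)))
          obtain ⟨i, -, hi⟩ := (Nat.dvd_prime_pow Nat.prime_two).1 hd
          exact ⟨i, hi⟩
    exact fun b hb => hle hb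
  · intro T hTS hwT hcl x hx
    have h := closed_eq_top hF hω (T := T.map ψ.toMonoidHom) ⟨w, hwT, hw⟩ ?_ ((hmem x).1 hx)
    · obtain ⟨y, hy, hyx⟩ := h
      rwa [← ψ.injective hyx]
    · rintro g _ ⟨y, hy, rfl⟩ hgy
      obtain ⟨g', rfl⟩ := ψ.surjective g
      have e : ψ g' * ψ y * (ψ g')⁻¹ = ψ (g' * y * g'⁻¹) := by rw [map_mul, map_mul, map_inv]
      exact ⟨_, hcl g' y hy ((hmem _).2 (e ▸ hgy)), e.symm⟩

/-- The `2`-fusion system of a group isomorphic to `J₃` is simple. -/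
theorem isSimple {G : Type*} [Group G] [Finite G] (e : G ≃* Spor.J3 F ω) (S : Sylow 2 G) :
    (Cfsg.groupFusionSystem (S : Subgroup G)).IsSimple 2 := by
  have : Fact (Nat.Prime 2) := ⟨Nat.prime_two⟩
  let S₀ : Sylow 2 G := (sylow hF hω).comapOfInjective e.toMonoidHom e.injective
    (by rw [MonoidHom.range_eq_top.2 e.surjective]; exact le_top)
  obtain ⟨c, rfl⟩ := MulAction.exists_smul_eq G S₀ S
  refine isSimple_sylow hF hω ((MulAut.conj c⁻¹).trans e) _ ?_
  ext x
  rw [Sylow.coe_subgroup_smul, Subgroup.mem_pointwise_smul_iff_inv_smul_mem]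
  show e ((MulAut.conj c)⁻¹ • x) ∈ syl hF hω ↔ _
  simp [MulAut.smul_def]

end CfsgLib.JankoThree.Fusion
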