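import Cfsg.Agent.JankoThree.FusionData
import Cfsg.Agent.JankoThree.Stab

/-! Kernel checks on the `2`-local data of `3·J₃`. -/

set_option autoImplicit false
set_option maxRecDepth 100000

namespace CfsgLib.JankoThree.Fusion

/-- a position list is covered in order -/
def parOK (pk : ℕ → List ℕ) (gs : List ℕ) (n : ℕ) :
    List ℕ → List (ℕ × ℕ × ℕ) → Bool
  | seen, [] => (List.range n).all fun j => seen.contains j
  | seen, (y, x, k) :: l => seen.contains x && Nat.blt x n && Nat.blt k gs.length &&
      eqM (mul (pk (gs.getD k 0)) (pk x)) (pk y) && parOK pk gs n (y :: seen) l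

/-- a list of words and matrices forms a group generated by some of its members -/
def grpOK (wd pk : ℕ → List ℕ) (one : ℕ) (gs : List ℕ) (n : ℕ) (left : List (List ℕ))
    (par : List (ℕ × ℕ × ℕ)) : Bool :=
  (List.range n).all (fun j => eqM (evW (wd j)) (pk j) &&
      (List.range j).all fun k => !Nat.beq (mKey (pk j)) (mKey (pk k))) &&
    (eqM (pk one) onePk && Nat.blt one n) &&
    gs.all (fun g => Nat.blt g n) &&
    (List.range gs.length).all (fun k => (List.range n).all fun j =>
      Nat.blt ((left.getD k []).getD j 0) n &&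
        eqM (mul (pk (gs.getD k 0)) (pk j)) (pk ((left.getD k []).getD j 0))) &&
    parOK pk gs n [one] par

/-- word and matrix of a Sylow element -/
def sW (j : ℕ) : List ℕ := elWords.getD j []
/-- its matrix -/
def sPk (j : ℕ) : List ℕ := elPk.getD j onePk
/-- word of a member of the extraspecial subgroup -/
def rW (j : ℕ) : List ℕ := sW (rList.getD j 0)
/-- its matrix -/
def rPk (j : ℕ) : List ℕ := sPk (rList.getD j 0)
/-- positions of its generators -/
def rgPos : List ℕ := rgIdx.map rList.idxOf
/-- word of a complement element -/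
def hW (j : ℕ) : List ℕ := hWords.getD j []
/-- its matrix -/
def hPkAt (j : ℕ) : List ℕ := hPk.getD j onePk
/-- word of a member of the subgroup of index five -/
def kW (j : ℕ) : List ℕ := hW (kList.getD j 0)
/-- its matrix -/
def kPk (j : ℕ) : List ℕ := hPkAt (kList.getD j 0)
/-- positions of its generators -/
def kgPos : List ℕ := kgIdx.map kList.idxOf
/-- word of a normalizing element -/
def nW (u : ℕ) : List ℕ := if u < 3 then sW (sgIdx.getD u 0) else tWords.getD (u - 3) []
/-- its matrix -/
def nPk (u : ℕ) : List ℕ := if u < 3 then sPk (sgIdx.getD u 0) else tPk.getD (u - 3) onePk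

theorem syl_ok : grpOK sW sPk oneIdx sgIdx 128 elLeft elPar = true := by decide +kernel

theorem core_ok : grpOK rW rPk 0 rgPos 32 rLeft rPar = true := by decide +kernel

theorem compl_ok : grpOK hW hPkAt 0 hgIdx 60 hLeft hPar = true := by decide +kernel

theorem sub_ok : grpOK kW kPk 0 kgPos 12 kLeft kPar = true := by decide +kernel

theorem lists_ok : (rList.all (fun r => Nat.blt r 128) && rList.contains oneIdx &&
    rList.contains zIdx && (rList.length == 32) && kList.all (fun r => Nat.blt r 60) &&
    (kList.length == 12) && (sgIdx.length == 3) && Nat.blt zIdx 128 && !Nat.beq zIdx oneIdx &&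
    eqM (evW zWord) (sPk zIdx) && eqM (mul (sPk zIdx) (sPk zIdx)) onePk &&
    Nat.beq (mv (sPk zIdx) 1) 1) = true := by
  decide +kernel

theorem centre_ok : ((List.range 128).all fun j => Nat.beq j oneIdx || Nat.beq j zIdx ||
    (List.range 3).any fun k =>
      !Nat.beq (mKey (mul (sPk j) (sPk (sgIdx.getD k 0)))) (mKey (mul (sPk (sgIdx.getD k 0)) (sPk j))))
    = true := by decide +kernel

theorem centric_ok : ((List.range 128).all fun j => rList.contains j || rgPos.any fun r =>
      !Nat.beq (mKey (mul (sPk j) (rPk r))) (mKey (mul (rPk r) (sPk j)))) = true := by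
  decide +kernel

theorem norm_ok : ((List.range 7).all fun u => eqM (evW (nW u)) (nPk u) &&
    eqM (mul (nPk u) (sPk zIdx)) (mul (sPk zIdx) (nPk u)) &&
    (Nat.blt u 3 || eqM (mul (nPk u) (nPk u)) onePk) &&
    (List.range rgPos.length).all fun i => Nat.blt ((nTab.getD u []).getD i 0) 32 &&
      eqM (mul (nPk u) (rPk (rgPos.getD i 0)))
        (mul (rPk ((nTab.getD u []).getD i 0)) (nPk u))) = true := by decide +kernel

/-- product of two of the involutions -/
def ordPk (a : ℕ) : List ℕ := mul (nPk a) (nPk (a + 1))

/-- powers -/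
def pw (M : List ℕ) : ℕ → List ℕ
  | 0 => onePk
  | n + 1 => mul M (pw M n)

theorem order_ok : [(3, 3), (5, 5)].all (fun p => eqM (pw (ordPk p.1) p.2) onePk &&
    rgPos.any fun r =>
      !Nat.beq (mKey (mul (ordPk p.1) (rPk r))) (mKey (mul (rPk r) (ordPk p.1)))) = true := by
  decide +kernel

/-- pairs of the stabiliser commuting with the involution -/
def stabList : List (ℕ × ℕ) :=
  (List.range 10).flatMap fun j => ((List.range 648).filter fun t =>
    Nat.beq (mKey (mul (mul (repPk.getD j onePk) (k1M t)) (sPk zIdx)))
      (mKey (mul (sPk zIdx) (mul (repPk.getD j onePk) (k1M t))))).map fun t => (j, t)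

theorem stab_ok : Nat.ble stabList.length 60 = true := by decide +kernel

/-- the image vectors -/
def imgKey (t : ℕ) : ℕ := key (mv (sPk zIdx) t ^^^ t)

/-- increasing values -/
def incr : List ℕ → Bool
  | x :: y :: l => Nat.blt x y && incr (y :: l)
  | _ => true

theorem img_ok : (incr (imgList.map imgKey) && (imgList.length == 256)) = true := by decide +kernel

theorem conj_ok : ((List.range conjWords.length).all fun k =>
    eqM (evW (conjWords.getD k [])) (conjPk.getD k onePk)) = true := by decide +kernel

theorem inv_ok : ((List.range 128).all fun j => Nat.beq j oneIdx ||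
    !Nat.beq (mKey (mul (sPk j) (sPk j))) (mKey onePk) ||
    (Nat.blt (invConj.getD j 0) conjWords.length &&
      eqM (mul (conjPk.getD (invConj.getD j 0) onePk) (sPk zIdx))
        (mul (sPk j) (conjPk.getD (invConj.getD j 0) onePk)))) = true := by decide +kernel

/-- one step of the closure -/
def stepOK (known : List ℕ) : Bool × ℕ × ℕ × ℕ → Bool
  | (false, x, y, t) => Nat.blt x known.length && Nat.blt y known.length && Nat.blt t 128 &&
      eqM (mul (sPk (known.getD x 0)) (sPk (known.getD y 0))) (sPk t)
  | (true, x, k, t) => Nat.blt x known.length && Nat.blt k conjWords.length && Nat.blt t 128 &&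
      eqM (mul (conjPk.getD k onePk) (sPk (known.getD x 0))) (mul (sPk t) (conjPk.getD k onePk))

/-- all steps, reaching the generators -/
def closureOK : List ℕ → List (Bool × ℕ × ℕ × ℕ) → Bool
  | known, [] => sgIdx.all fun g => known.contains g
  | known, e :: es => stepOK known e && closureOK (known ++ [e.2.2.2]) es

theorem closure_ok : closureOK [zIdx] steps = true := by decide +kernel

theorem kwit_ok : ((List.range 12).all fun h => Nat.beq h 0 ||
    (Nat.blt (kWit.getD h 0) 60 && (List.range 12).all fun a =>
      !Nat.beq (mKey (mul (hPkAt (kWit.getD h 0)) (kPk h)))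
        (mKey (mul (kPk a) (hPkAt (kWit.getD h 0)))))) = true := by decide +kernel

theorem compl_z_ok : (hgIdx.all fun g => eqM (mul (hPkAt g) (sPk zIdx)) (mul (sPk zIdx) (hPkAt g))) &&
    ((List.range 60).all fun h => Nat.beq h 0 || (List.range 32).all fun r =>
      !Nat.beq (mKey (hPkAt h)) (mKey (rPk r))) = true := by decide +kernel

theorem extra_ok : ((List.range 32).all fun a => (List.range 32).all fun b =>
      Nat.beq (mKey (mul (rPk a) (rPk b))) (mKey (mul (rPk b) (rPk a))) ||
        eqM (mul (rPk a) (rPk b)) (mul (sPk zIdx) (mul (rPk b) (rPk a)))) &&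
    ((List.range 32).all fun a => eqM (mul (rPk a) (rPk a)) onePk ||
      eqM (mul (rPk a) (rPk a)) (sPk zIdx)) &&
    ((List.range 32).all fun a => Nat.beq (rList.getD a 0) oneIdx || Nat.beq (rList.getD a 0) zIdx ||
      (List.range 32).any fun b =>
        !Nat.beq (mKey (mul (rPk a) (rPk b))) (mKey (mul (rPk b) (rPk a)))) &&
    ((List.range 32).all fun a => (List.range 32).all fun b =>
      Nat.beq a 0 || Nat.beq b 0 || Nat.beq (rList.getD a 0) zIdx || Nat.beq (rList.getD b 0) zIdx ||
      Nat.beq a b ||
      !Nat.beq (mKey (mul (rPk a) (rPk a))) (mKey onePk) ||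
      !Nat.beq (mKey (mul (rPk b) (rPk b))) (mKey onePk) ||
      !Nat.beq (mKey (mul (rPk a) (rPk b))) (mKey (mul (rPk b) (rPk a))) ||
      eqM (mul (rPk a) (rPk b)) (sPk zIdx)) = true := by decide +kernel

end CfsgLib.JankoThree.Fusion
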